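import Mathlib
import Cfsg.Prelude.Def_Transfer
import Cfsg.Agent.Lib.PGroup.Critical
import Cfsg.Agent.Lib.QFour.Act

/-!
# Pairs of `3`-elements acting on an `𝔽₂`-space with two-dimensional commutators.
-/

set_option autoImplicit false
set_option linter.unusedSectionVars false
set_option linter.unusedVariables false
set_option linter.style.haveILetI false

namespace Cfsg.Agent.Lib.QFour.Pair

open Subgroup Act

variable {Γ A : Type*} [Group Γ] [AddCommGroup A] [Module (ZMod 2) A]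
  (ρ : Γ →* Module.End (ZMod 2) A)

/-- `x` and `y` act trivially on each other's commutator spaces. -/
def TypeA (x y : Γ) : Prop := (∀ u ∈ W ρ x, ρ y u = u) ∧ (∀ u ∈ W ρ y, ρ x u = u)

variable {ρ}

theorem TypeA.symm {x y : Γ} (h : TypeA ρ x y) : TypeA ρ y x := ⟨h.2, h.1⟩

theorem TypeA.conj {x y : Γ} (h : TypeA ρ x y) (g : Γ) : TypeA ρ (g * x * g⁻¹) (g * y * g⁻¹) := by
  constructor
  · intro u hu
    rw [W_conj] at hu
    obtain ⟨v, hv, rfl⟩ := hu
    show ρ (g * y * g⁻¹) (ρ g v) = ρ g v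
    rw [rho_conj_apply, h.1 v hv]
  · intro u hu
    rw [W_conj] at hu
    obtain ⟨v, hv, rfl⟩ := hu
    show ρ (g * x * g⁻¹) (ρ g v) = ρ g v
    rw [rho_conj_apply, h.2 v hv]

variable (ρ) in
theorem typeA_of_commute {x y : Γ} (hc : ρ x * ρ y = ρ y * ρ x) (hd : Disjoint (W ρ x) (W ρ y)) :
    TypeA ρ x y := by
  have key : ∀ x y : Γ, ρ x * ρ y = ρ y * ρ x → Disjoint (W ρ x) (W ρ y) →
      ∀ u ∈ W ρ x, ρ y u = u := by
    intro x y hc hd u hu
    obtain ⟨a, rfl⟩ := (mem_W_iff ρ).1 hu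
    have h1 : ρ y (ρ x a - a) - (ρ x a - a) ∈ W ρ y := mem_W ρ y _
    have h2 : ρ y (ρ x a - a) - (ρ x a - a) ∈ W ρ x := by
      have h3 : ρ y (ρ x a) = ρ x (ρ y a) := by
        rw [← Module.End.mul_apply, ← hc, Module.End.mul_apply]
      have h4 : ρ y (ρ x a - a) - (ρ x a - a) = ρ x (ρ y a - a) - (ρ y a - a) := by
        rw [map_sub, h3, map_sub]; abel
      rw [h4]
      exact mem_W ρ x _
    have h5 := (Submodule.disjoint_def.1 hd) _ h2 h1
    exact sub_eq_zero.1 h5
  exact ⟨key x y hc hd, key y x hc.symm hd.symm⟩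

/-- The data attached to a subgroup `T` with complemented commutator space `D`. -/
structure Env (ρ : Γ →* Module.End (ZMod 2) A) (T : Subgroup Γ) (D : Submodule (ZMod 2) A)
    {G : Type*} [Group G] (φ : T →* G) : Prop where
  hW : ∀ t ∈ T, W ρ t ≤ D
  hc : IsCompl (Cs ρ T) D
  hφ : ∀ g : T, φ g = 1 ↔ ρ g.1 = 1

section Env

variable {T : Subgroup Γ} {D : Submodule (ZMod 2) A} {G : Type*} [Group G] {φ : T →* G}

theorem Env.stab (h : Env ρ T D φ) {t : Γ} (ht : t ∈ T) {u : A} (hu : u ∈ D) : ρ t u ∈ D :=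
  W_stab ρ (h.hW t ht) hu

theorem Env.of_fix (h : Env ρ T D φ) {t : Γ} (ht : t ∈ T) (hf : ∀ u ∈ D, ρ t u = u) : ρ t = 1 := by
  ext a
  have ha : a ∈ Cs ρ T ⊔ D := by rw [h.hc.sup_eq_top]; trivial
  obtain ⟨c, hc, d, hd, rfl⟩ := Submodule.mem_sup.1 ha
  rw [map_add, hc t ht, hf d hd]
  rfl

theorem Env.rho_eq (h : Env ρ T D φ) {g k : T} (e : φ g = φ k) : ρ g.1 = ρ k.1 := by
  have h1 : φ (g * k⁻¹) = 1 := by rw [map_mul, map_inv, e, mul_inv_cancel]
  have h2 := (h.hφ _).1 h1
  have h3 : g.1 = (g * k⁻¹).1 * k.1 := by simp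
  rw [h3, map_mul, h2, one_mul]

theorem Env.comm (h : Env ρ T D φ) {g k : T} (e : φ g * φ k = φ k * φ g) :
    ρ g.1 * ρ k.1 = ρ k.1 * ρ g.1 := by
  have h1 : φ (g * k) = φ (k * g) := by rw [map_mul, map_mul, e]
  have h2 := h.rho_eq h1
  simpa using h2

theorem Env.fix_iff (h : Env ρ T D φ) (g : T) : φ g = 1 ↔ ∀ u ∈ D, ρ g.1 u = u := by
  rw [h.hφ]
  exact ⟨fun h2 u _ => by rw [h2]; rfl, fun h2 => h.of_fix g.2 h2⟩

/-- Same data through the range. -/
theorem Env.range (h : Env ρ T D φ) : Env ρ T D φ.rangeRestrict :=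
  ⟨h.hW, h.hc, fun g => by
    rw [← h.hφ g]
    constructor
    · intro h2
      have := congrArg Subtype.val h2
      simpa using this
    · intro h2
      apply Subtype.ext
      simpa using h2⟩

theorem Env.inf_bot (h : Env ρ T D φ) : D ⊓ Cs ρ T = ⊥ := by
  rw [inf_comm]; exact h.hc.inf_eq_bot

end Env

theorem exists_env [Finite Γ] [Finite A] (x y : Γ) (hodd : Odd (Nat.card (closure ({x, y} : Set Γ))))
    (e : ℕ) (he : Module.finrank (ZMod 2) ↥(W ρ x ⊔ W ρ y) = e) :
    ∃ φ : (closure ({x, y} : Set Γ)) →* GL (Fin e) (ZMod 2),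
      Env ρ (closure ({x, y} : Set Γ)) (W ρ x ⊔ W ρ y) φ := by
  have hW : ∀ t ∈ closure ({x, y} : Set Γ), W ρ t ≤ W ρ x ⊔ W ρ y := by
    intro t ht
    refine W_closure_le ρ ?_ ht
    rintro g (rfl | hg)
    · exact le_sup_left
    · rw [Set.mem_singleton_iff.1 hg]; exact le_sup_right
  have hc : IsCompl (Cs ρ (closure ({x, y} : Set Γ))) (W ρ x ⊔ W ρ y) := by
    refine isCompl_Cs ρ _ hodd _ hW (sup_le ?_ ?_)
    · exact le_iSup (fun t : closure ({x, y} : Set Γ) => W ρ t.1)
        ⟨x, subset_closure (Or.inl rfl)⟩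
    · exact le_iSup (fun t : closure ({x, y} : Set Γ) => W ρ t.1)
        ⟨y, subset_closure (Or.inr rfl)⟩
  obtain ⟨φ, hφ⟩ := exists_GL ρ (closure ({x, y} : Set Γ)) (W ρ x ⊔ W ρ y)
    (fun g hg u hu => W_stab ρ (hW g hg) hu) e he
  refine ⟨φ, hW, hc, fun g => (hφ g).trans ?_⟩
  constructor
  · intro hf
    ext a
    have ha : a ∈ Cs ρ (closure ({x, y} : Set Γ)) ⊔ (W ρ x ⊔ W ρ y) := by
      rw [hc.sup_eq_top]; trivial
    obtain ⟨c, hc', d, hd, rfl⟩ := Submodule.mem_sup.1 ha
    rw [map_add, hc' g.1 g.2, hf d hd]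
    rfl
  · intro hf u _
    rw [hf]; rfl

/-- A group of order `r ^ k`, `k ≤ 2`, is abelian. -/
theorem comm_of_card {G : Type*} [Group G] [Finite G] {r : ℕ} [hr : Fact r.Prime] {k : ℕ} (hk : k ≤ 2)
    (hc : Nat.card G = r ^ k) (a b : G) : a * b = b * a := by
  have : k = 0 ∨ k = 1 ∨ k = 2 := by omega
  rcases this with rfl | rfl | rfl
  · rw [pow_zero] at hc
    haveI := (Nat.card_eq_one_iff_unique.1 hc).1
    exact Subsingleton.elim _ _
  · rw [pow_one] at hc
    haveI : Fact (Nat.card G).Prime := ⟨by rw [hc]; exact hr.out⟩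
    haveI := isCyclic_of_prime_card (p := Nat.card G) rfl
    letI := IsCyclic.commGroup (α := G)
    exact mul_comm a b
  · have := IsPGroup.isMulCommutative_of_card_eq_prime_sq hc
    exact this.1.1 a b

theorem odd_card_of_pgroup {G : Type*} [Group G] [Finite G] {r : ℕ} [hr : Fact r.Prime] (hr2 : r ≠ 2)
    (h : IsPGroup r G) : Odd (Nat.card G) := by
  obtain ⟨n, hn⟩ := h.exists_card_eq
  rw [hn]
  exact (hr.out.odd_of_ne_two hr2).pow

theorem finrank_bot_of_eq {U : Submodule (ZMod 2) A} (h : U = ⊥) :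
    Module.finrank (ZMod 2) U = 0 := by
  subst h; simp

variable (ρ) in
/-- **Pair Lemma for `r`-groups.** -/
theorem pair_pgroup [Finite Γ] [Finite A] {r : ℕ} [hrp : Fact r.Prime] (hr2 : r ≠ 2) (d : ℕ)
    (hd : ∀ e, d ≤ e → e ≤ 2 * d → 2 ^ e ≡ 1 [MOD r] → e = d ∨ e = 2 * d)
    (hGL : ∀ k, r ^ k ∣ Nat.card (GL (Fin (2 * d)) (ZMod 2)) → k ≤ 2) (x y : Γ)
    (hT : IsPGroup r (closure ({x, y} : Set Γ)))
    (hx : Module.finrank (ZMod 2) (W ρ x) = d) (hy : Module.finrank (ZMod 2) (W ρ y) = d) :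
    W ρ x = W ρ y ∨ TypeA ρ x y := by
  classical
  haveI : Module.Finite (ZMod 2) A := Module.Finite.of_finite
  have hodd := odd_card_of_pgroup hr2 hT
  set D := W ρ x ⊔ W ρ y with hD
  obtain ⟨φ₀, hφ₀⟩ := exists_env (ρ := ρ) x y hodd _ rfl
  have htwo := two_pow_modEq ρ _ hT D (fun g hg u hu => hφ₀.stab hg hu)
  rw [hφ₀.inf_bot, finrank_bot_of_eq rfl, pow_zero] at htwo
  have hle1 : d ≤ Module.finrank (ZMod 2) D := by
    rw [← hx]; exact Submodule.finrank_mono le_sup_left
  have hsum := Submodule.finrank_sup_add_finrank_inf_eq (W ρ x) (W ρ y)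
  rw [hx, hy] at hsum
  have hle2 : Module.finrank (ZMod 2) D ≤ 2 * d := by
    rw [hD]; omega
  rcases hd _ hle1 hle2 htwo with he | he
  · left
    have h1 : W ρ x = D := Submodule.eq_of_le_of_finrank_eq le_sup_left (by rw [hx, he])
    have h2 : W ρ y = D := Submodule.eq_of_le_of_finrank_eq le_sup_right (by rw [hy, he])
    rw [h1, h2]
  · right
    have hinf : Module.finrank (ZMod 2) ↥(W ρ x ⊓ W ρ y) = 0 := by
      rw [hD] at he; omega
    have hdis : Disjoint (W ρ x) (W ρ y) := by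
      rw [disjoint_iff]
      exact Submodule.finrank_eq_zero.1 hinf
    refine typeA_of_commute ρ ?_ hdis
    obtain ⟨φ, hφ⟩ := exists_env (ρ := ρ) x y hodd (2 * d) he
    -- the image is an `r`-group of order at most `r ^ 2`
    obtain ⟨k, hk⟩ := hT.index φ.ker
    have hcard : Nat.card φ.range = r ^ k := by
      rw [← hk, Subgroup.index_ker]
    have hk2 : k ≤ 2 := hGL k (by
      rw [← hcard]; exact Subgroup.card_subgroup_dvd_card _)
    have hcomm := comm_of_card hk2 hcard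
    have hx' : x ∈ closure ({x, y} : Set Γ) := subset_closure (Or.inl rfl)
    have hy' : y ∈ closure ({x, y} : Set Γ) := subset_closure (Or.inr rfl)
    refine hφ.comm (g := ⟨x, hx'⟩) (k := ⟨y, hy'⟩) ?_
    have := hcomm (φ.rangeRestrict ⟨x, hx'⟩) (φ.rangeRestrict ⟨y, hy'⟩)
    exact congrArg Subtype.val this

/-- Power of an element of a `{3,q}`-group that is a `q`-element with nontrivial image. -/
theorem lift_q {T G : Type*} [Group T] [Finite T] [Group G] (φ : T →* G) {q : ℕ} (hq : q.Prime)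
    (hq3 : q ≠ 3) (hT : ∀ r : ℕ, r.Prime → r ∣ Nat.card T → r = 3 ∨ r = q) (t : T)
    (ht : orderOf (φ t) = q) :
    ∃ (a b : ℕ), (t ^ 3 ^ a) ^ q ^ b = 1 ∧ φ (t ^ 3 ^ a) ≠ 1 ∧ (φ (t ^ 3 ^ a)) ^ q = 1 := by
  have ho : orderOf t ≠ 0 := (orderOf_pos t).ne'
  obtain ⟨a, m, hm3, hm⟩ := Nat.exists_eq_pow_mul_and_not_dvd ho 3 (by norm_num)
  have hm0 : m ≠ 0 := by
    rintro rfl
    rw [mul_zero] at hm
    exact ho hm
  have hmq : m = q ^ m.primeFactorsList.length := by
    refine Nat.eq_prime_pow_of_unique_prime_dvd hm0 ?_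
    intro d hd hdm
    have hd2 : d ∣ Nat.card T := by
      refine (hdm.trans ?_).trans (orderOf_dvd_natCard t)
      rw [hm]; exact dvd_mul_left _ _
    rcases hT d hd hd2 with rfl | h
    · exact absurd hdm hm3
    · exact h
  refine ⟨a, m.primeFactorsList.length, ?_, ?_, ?_⟩
  · rw [← pow_mul, ← hmq, ← hm, pow_orderOf_eq_one]
  · rw [map_pow]
    intro h
    have h2 := orderOf_dvd_of_pow_eq_one h
    rw [ht] at h2
    have h3 := hq.dvd_of_dvd_pow h2
    exact hq3 ((Nat.prime_dvd_prime_iff_eq hq Nat.prime_three).1 h3)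
  · rw [map_pow, ← pow_mul, mul_comm, pow_mul, ← ht, pow_orderOf_eq_one, one_pow]

/-- A normal subgroup of prime order from Sylow's theorem. -/
theorem normal_prime {G : Type*} [Group G] [Finite G] {q : ℕ} [hqp : Fact q.Prime] (m : ℕ)
    (hG : Nat.card G ∣ q * m) (hqm : ¬ q ∣ m) (hq : q ∣ Nat.card G)
    (hm : ∀ d, d ∣ m → d % q = 1 → d = 1) : ∃ P : Subgroup G, P.Normal ∧ Nat.card P = q := by
  classical
  obtain ⟨m', hm'⟩ := hq
  have hq0 := hqp.out.pos
  have hm'm : m' ∣ m := by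
    rw [hm'] at hG
    exact Nat.dvd_of_mul_dvd_mul_left hq0 hG
  have hqm' : ¬ q ∣ m' := fun h => hqm (h.trans hm'm)
  obtain ⟨P⟩ : Nonempty (Sylow q G) := inferInstance
  have hPc : Nat.card P = q := by
    obtain ⟨j, hj⟩ := P.isPGroup'.exists_card_eq
    have h1 : q ^ j ∣ q * m' := by
      rw [← hj, ← hm']; exact Subgroup.card_subgroup_dvd_card _
    have hj1 : j ≤ 1 := by
      by_contra hh
      have h2 : q ^ 2 ∣ q * m' := (pow_dvd_pow q (by omega)).trans h1
      rw [sq] at h2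
      exact hqm' (Nat.dvd_of_mul_dvd_mul_left hq0 h2)
    have h3 : q ^ 1 ∣ Nat.card P := P.pow_dvd_card_of_pow_dvd_card (by rw [pow_one, hm']; exact dvd_mul_right _ _)
    rw [hj, pow_one] at h3
    have : j = 1 := by
      have h4 : j ≠ 0 := by
        rintro rfl
        rw [pow_zero] at h3
        exact hqp.out.one_lt.ne' (Nat.dvd_one.1 h3)
      omega
    rw [hj, this, pow_one]
  have hidx : (P : Subgroup G).index = m' := by
    have h1 := (P : Subgroup G).card_mul_index
    rw [hPc, hm'] at h1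
    exact Nat.eq_of_mul_eq_mul_left hq0 h1
  have hn1 : Nat.card (Sylow q G) = 1 := by
    refine hm _ ((P.card_dvd_index).trans (hidx ▸ hm'm)) ?_
    have h1 := card_sylow_modEq_one q G
    have h2 : Nat.card (Sylow q G) % q = 1 % q := h1
    rw [h2, Nat.mod_eq_of_lt hqp.out.one_lt]
  haveI : Subsingleton (Sylow q G) := (Nat.card_eq_one_iff_unique.1 hn1).1
  exact ⟨P, Sylow.normal_of_subsingleton P, hPc⟩

/-- An element of order dividing 3 normalizing a cyclic group of order 5 centralizes it. -/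
theorem comm_of_order {G : Type*} [Group G] (X Z : G) (hX : X ^ 3 = 1) (hZ : orderOf Z = 5) (k : ℕ)
    (h : X * Z * X⁻¹ = Z ^ k) : X * Z = Z * X := by
  have h1 : ∀ n : ℕ, X * Z ^ n * X⁻¹ = Z ^ (k * n) := by
    intro n
    rw [← conj_pow, h, ← pow_mul]
  have h2 : X * (X * (X * Z * X⁻¹) * X⁻¹) * X⁻¹ = Z := by
    have : X * (X * (X * Z * X⁻¹) * X⁻¹) * X⁻¹ = X ^ 3 * Z * (X ^ 3)⁻¹ := by
      simp only [pow_succ, pow_zero, one_mul, mul_inv_rev, mul_assoc]
    rw [this, hX]; simp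
  have h3 : Z ^ (k * (k * k)) = Z ^ 1 := by
    rw [pow_one]
    rw [h, h1, h1] at h2
    rw [mul_comm k (k * k)] at *
    convert h2 using 2
  have h4 := pow_eq_pow_iff_modEq.1 h3
  rw [hZ] at h4
  have h5 : k % 5 = 1 := by
    have h6 : (k * (k * k)) % 5 = 1 := h4
    have h7 : k % 5 < 5 := Nat.mod_lt _ (by norm_num)
    rw [Nat.mul_mod, Nat.mul_mod k k] at h6
    interval_cases hk : k % 5 <;> simp_all
  have h8 : Z ^ k = Z := by
    have : Z ^ k = Z ^ 1 := pow_eq_pow_iff_modEq.2 (by rw [hZ]; exact h5)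
    rw [this, pow_one]
  rw [h8] at h
  calc X * Z = (X * Z * X⁻¹) * X := by group
    _ = Z * X := by rw [h]

theorem isPGroup_zpowers {G : Type*} [Group G] {r b : ℕ} (z : G) (h : z ^ r ^ b = 1) :
    IsPGroup r (zpowers z) := by
  rintro ⟨_, k, rfl⟩
  refine ⟨b, Subtype.ext ?_⟩
  show ((z ^ k) ^ r ^ b : G) = 1
  rw [← zpow_natCast, ← zpow_mul, mul_comm, zpow_mul, zpow_natCast, h, one_zpow]

variable (ρ) in
theorem mem_Cs_zpowers {z : Γ} {w : A} : w ∈ Cs ρ (zpowers z) ↔ ρ z w = w := by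
  constructor
  · intro h
    exact h z (mem_zpowers z)
  · intro h s hs
    have h1 : zpowers z ≤ Fx ρ (Submodule.span (ZMod 2) {w}) := by
      rw [zpowers_le]
      intro u hu
      obtain ⟨c, rfl⟩ := Submodule.mem_span_singleton.1 hu
      rw [map_smul, h]
    exact h1 hs w (Submodule.mem_span_singleton_self w)

/-- Exponents `mod 7`. -/
theorem aux_mod7 {f : ℕ} (hf : f ≤ 4) (h : 2 ^ 4 ≡ 2 ^ f [MOD 7]) : f = 1 ∨ f = 4 := by
  interval_cases f <;> first | (left; rfl) | (right; rfl) | (exfalso; revert h; decide)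

theorem aux_mod5 {f : ℕ} (hf : f ≤ 4) (h : 2 ^ 4 ≡ 2 ^ f [MOD 5]) : f = 0 ∨ f = 4 := by
  interval_cases f <;> first | (left; rfl) | (right; rfl) | (exfalso; revert h; decide)

theorem aux_mod7' {f : ℕ} (hf : f ≤ 3) (h : 2 ^ 3 ≡ 2 ^ f [MOD 7]) : f = 0 ∨ f = 3 := by
  interval_cases f <;> first | (left; rfl) | (right; rfl) | (exfalso; revert h; decide)

section Cases

variable {T : Subgroup Γ} {D : Submodule (ZMod 2) A} {G : Type*} [Group G]

theorem case_q7 [Finite Γ] [Finite A] (φ : T →* G) (henv : Env ρ T D φ)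
    (hD : Module.finrank (ZMod 2) D = 4) (z : T) (b : ℕ) (hzb : z ^ 7 ^ b = 1) (hz1 : φ z ≠ 1)
    (hnorm : ∀ g : T, ∃ k : ℕ, φ (g * z * g⁻¹) = (φ z) ^ k) : False := by
  classical
  haveI : Fact (Nat.Prime 7) := ⟨by norm_num⟩
  haveI : Module.Finite (ZMod 2) A := Module.Finite.of_finite
  have hzb' : z.1 ^ 7 ^ b = 1 := by
    have := congrArg Subtype.val hzb
    simpa using this
  have hzT : zpowers z.1 ≤ T := by rw [zpowers_le]; exact z.2
  have hp : IsPGroup 7 (zpowers z.1) := isPGroup_zpowers z.1 hzb'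
  have h2 := two_pow_modEq ρ (zpowers z.1) hp D (fun g hg u hu => henv.stab (hzT hg) hu)
  rw [hD] at h2
  set L := D ⊓ Cs ρ (zpowers z.1) with hL
  have hLD : L ≤ D := inf_le_left
  have hf4 : Module.finrank (ZMod 2) L ≤ 4 := by
    rw [← hD]; exact Submodule.finrank_mono hLD
  rcases aux_mod7 hf4 h2 with hf | hf
  · -- a unique nonzero vector, fixed by `T`
    obtain ⟨v, hv0, hv⟩ := finrank_eq_one_iff'.1 hf
    have hvzfix : ρ z.1 v.1 = v.1 := (mem_Cs_zpowers ρ).1 v.2.2
    have hfix : ∀ t : T, ρ t.1 v.1 = v.1 := by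
      intro t
      have hmem : ρ t.1 v.1 ∈ L := by
        refine ⟨henv.stab t.2 v.2.1, (mem_Cs_zpowers ρ).2 ?_⟩
        obtain ⟨k, hk⟩ := hnorm t⁻¹
        have h3 : φ (t⁻¹ * z * t⁻¹⁻¹) = φ (z ^ k) := by rw [hk, map_pow]
        have h4 := henv.rho_eq h3
        have h5 : ρ (t⁻¹ * z * t⁻¹⁻¹).1 v.1 = v.1 := by
          rw [h4]
          have h6 : (z ^ k).1 = z.1 ^ k := by simp
          rw [h6, map_pow]
          have h7 : ∀ n : ℕ, (ρ z.1 ^ n) v.1 = v.1 := by
            intro n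
            induction n with
            | zero => simp
            | succ n ih => rw [pow_succ, Module.End.mul_apply, hvzfix, ih]
          exact h7 k
        have h8 : ρ z.1 (ρ t.1 v.1) = ρ t.1 (ρ (t⁻¹ * z * t⁻¹⁻¹).1 v.1) := by
          rw [← rho_mul_apply, ← rho_mul_apply]
          have e : z.1 * t.1 = t.1 * (t⁻¹ * z * t⁻¹⁻¹).1 := by
            simp [mul_assoc]
          rw [e]
        rw [h8, h5]
      obtain ⟨c, hc⟩ := hv ⟨_, hmem⟩
      have hc' : c • v.1 = ρ t.1 v.1 := congrArg Subtype.val hc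
      have hc2 : c = 0 ∨ c = 1 := by
        have hall : ∀ c : ZMod 2, c = 0 ∨ c = 1 := by decide
        exact hall c
      rcases hc2 with rfl | rfl
      · exfalso
        rw [zero_smul] at hc'
        have h9 : ρ t⁻¹.1 (ρ t.1 v.1) = v.1 := by
          have := rho_inv_apply ρ t.1 v.1
          simpa using this
        rw [← hc', map_zero] at h9
        exact hv0 (Subtype.ext h9.symm)
      · rw [one_smul] at hc'
        exact hc'.symm
    have hv1 : v.1 ∈ D ⊓ Cs ρ T := ⟨v.2.1, fun t ht => hfix ⟨t, ht⟩⟩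
    rw [henv.inf_bot, Submodule.mem_bot] at hv1
    exact hv0 (Subtype.ext hv1)
  · have hLeq : L = D := Submodule.eq_of_le_of_finrank_eq hLD (by rw [hf, hD])
    apply hz1
    rw [henv.fix_iff]
    intro u hu
    have hu' : u ∈ L := hLeq ▸ hu
    exact (mem_Cs_zpowers ρ).1 hu'.2

theorem case_q5 [Finite Γ] [Finite A] (φ : T →* G) (henv : Env ρ T D φ)
    (hD : Module.finrank (ZMod 2) D = 4) (z : T) (b : ℕ) (hzb : z ^ 5 ^ b = 1) (hz1 : φ z ≠ 1)
    (hz5 : (φ z) ^ 5 = 1) (x : T) (hx1 : (φ x) ^ 3 = 1)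
    (hxfin : Module.finrank (ZMod 2) (W ρ x.1) ≤ 2) (hxne : φ x ≠ 1) (k : ℕ)
    (hk : φ (x * z * x⁻¹) = (φ z) ^ k) : False := by
  classical
  haveI : Fact (Nat.Prime 5) := ⟨by norm_num⟩
  haveI : Module.Finite (ZMod 2) A := Module.Finite.of_finite
  have hzb' : z.1 ^ 5 ^ b = 1 := by
    have := congrArg Subtype.val hzb
    simpa using this
  have hzT : zpowers z.1 ≤ T := by rw [zpowers_le]; exact z.2
  have hp : IsPGroup 5 (zpowers z.1) := isPGroup_zpowers z.1 hzb'
  have h2 := two_pow_modEq ρ (zpowers z.1) hp D (fun g hg u hu => henv.stab (hzT hg) hu)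
  rw [hD] at h2
  set L := D ⊓ Cs ρ (zpowers z.1) with hL
  have hLD : L ≤ D := inf_le_left
  have hf4 : Module.finrank (ZMod 2) L ≤ 4 := by
    rw [← hD]; exact Submodule.finrank_mono hLD
  rcases aux_mod5 hf4 h2 with hf | hf
  · -- `z` is fixed point free on `D`
    have hLbot : L = ⊥ := Submodule.finrank_eq_zero.1 hf
    have hord : orderOf (φ z) = 5 := orderOf_eq_prime hz5 hz1
    have hcom : φ x * φ z = φ z * φ x := comm_of_order _ _ hx1 hord k (by
      rw [← hk, map_mul, map_mul, map_inv])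
    have hcom' : ρ x.1 * ρ z.1 = ρ z.1 * ρ x.1 := henv.comm hcom
    -- the fixed space of `x` on `D`
    set U := D ⊓ Cs ρ (zpowers x.1) with hU
    have hUD : U ≤ D := inf_le_left
    have hUcomm : ∀ s ∈ zpowers z.1, ∀ u ∈ U, ρ s u ∈ U := by
      intro s hs u hu
      refine ⟨henv.stab (hzT hs) hu.1, (mem_Cs_zpowers ρ).2 ?_⟩
      obtain ⟨n, rfl⟩ := (mem_powers_iff_mem_zpowers).2 hs
      have hcp : Commute (ρ x.1) (ρ (z.1 ^ n)) := by
        rw [map_pow]
        exact Commute.pow_right hcom' n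
      have h5 : ρ x.1 u = u := (mem_Cs_zpowers ρ).1 hu.2
      rw [← Module.End.mul_apply, hcp.eq, Module.End.mul_apply, h5]
    have h6 := two_pow_modEq ρ (zpowers z.1) hp U hUcomm
    have h7 : U ⊓ Cs ρ (zpowers z.1) = ⊥ := by
      rw [eq_bot_iff, ← hLbot]
      rintro v ⟨hv1, hv2⟩
      exact ⟨hv1.1, hv2⟩
    rw [h7, finrank_bot_of_eq rfl, pow_zero] at h6
    -- rank nullity
    let ψ : ↥D →ₗ[ZMod 2] A := (ρ x.1 - 1).comp D.subtype
    have hrn := LinearMap.finrank_range_add_finrank_ker ψ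
    rw [hD] at hrn
    have hrange : Module.finrank (ZMod 2) (LinearMap.range ψ) ≤ 2 := by
      refine le_trans (Submodule.finrank_mono ?_) hxfin
      rintro _ ⟨v, rfl⟩
      exact ⟨v.1, rfl⟩
    have hker : Module.finrank (ZMod 2) (LinearMap.ker ψ) ≤ Module.finrank (ZMod 2) U := by
      refine LinearMap.finrank_le_finrank_of_injective
        (f := { toFun := fun v => ⟨v.1.1, v.1.2, (mem_Cs_zpowers ρ).2 (by
                  have := LinearMap.mem_ker.1 v.2
                  have h8 : ρ x.1 v.1.1 - v.1.1 = 0 := this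
                  exact sub_eq_zero.1 h8)⟩
                map_add' := fun _ _ => rfl
                map_smul' := fun _ _ => rfl }) ?_
      intro a c hac
      have := congrArg Subtype.val hac
      exact Subtype.ext (Subtype.ext this)
    have hUle : Module.finrank (ZMod 2) U ≤ 4 := by
      rw [← hD]; exact Submodule.finrank_mono hUD
    have hU2 : 2 ≤ Module.finrank (ZMod 2) U := by omega
    have hU4 : Module.finrank (ZMod 2) U = 4 := by
      generalize Module.finrank (ZMod 2) U = g at h6 hU2 hUle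
      interval_cases g
      · revert h6; decide
      · revert h6; decide
      · rfl
    have hUeq : U = D := Submodule.eq_of_le_of_finrank_eq hUD (by rw [hU4, hD])
    apply hxne
    rw [henv.fix_iff]
    intro u hu
    have hu' : u ∈ U := hUeq ▸ hu
    exact (mem_Cs_zpowers ρ).1 hu'.2
  · have hLeq : L = D := Submodule.eq_of_le_of_finrank_eq hLD (by rw [hf, hD])
    apply hz1
    rw [henv.fix_iff]
    intro u hu
    have hu' : u ∈ L := hLeq ▸ hu
    exact (mem_Cs_zpowers ρ).1 hu'.2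

/-- From a normal subgroup of prime order in the image to a `q`-element. -/
theorem exists_normal_elt [Finite T] [Finite G] (φ : T →* G) (hs : Function.Surjective φ)
    {q : ℕ} [hqp : Fact q.Prime] (hq3 : q ≠ 3)
    (hT : ∀ r : ℕ, r.Prime → r ∣ Nat.card T → r = 3 ∨ r = q) (P : Subgroup G) (hPn : P.Normal)
    (hPc : Nat.card P = q) :
    ∃ (z : T) (b : ℕ), z ^ q ^ b = 1 ∧ φ z ≠ 1 ∧ (φ z) ^ q = 1 ∧
      ∀ g : T, ∃ k : ℕ, φ (g * z * g⁻¹) = (φ z) ^ k := by
  classical
  obtain ⟨u, hu⟩ := exists_prime_orderOf_dvd_card' (G := P) q (by rw [hPc])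
  have hu' : orderOf u.1 = q := by
    rw [Subgroup.orderOf_coe]; exact hu
  obtain ⟨t, ht⟩ := hs u.1
  obtain ⟨a, b, h1, h2, h3⟩ := lift_q φ hqp.out hq3 hT t (by rw [ht]; exact hu')
  refine ⟨t ^ 3 ^ a, b, h1, h2, h3, fun g => ?_⟩
  have hzP : φ (t ^ 3 ^ a) ∈ P := by
    rw [map_pow, ht]; exact P.pow_mem u.2 _
  have hord : orderOf (φ (t ^ 3 ^ a)) = q := orderOf_eq_prime h3 h2
  have hle : zpowers (φ (t ^ 3 ^ a)) ≤ P := by rw [zpowers_le]; exact hzP
  have heq : zpowers (φ (t ^ 3 ^ a)) = P := by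
    apply Subgroup.eq_of_le_of_card_ge hle
    rw [Nat.card_zpowers, hord, hPc]
  have hg : φ (g * t ^ 3 ^ a * g⁻¹) ∈ P := by
    rw [map_mul, map_mul, map_inv]
    exact hPn.conj_mem _ hzP _
  rw [← heq] at hg
  obtain ⟨k, hk⟩ := (mem_powers_iff_mem_zpowers).2 hg
  exact ⟨k, hk.symm⟩

end Cases

variable (ρ) in
/-- **Pair Lemma for `{3,p}`-groups.** -/
theorem pair_three_p [Finite Γ] [Finite A] (p : ℕ) (hp : p.Prime) (hp2 : p ≠ 2) (hp3 : p ≠ 3) (x y : Γ)
    (hT : ∀ q : ℕ, q.Prime → q ∣ Nat.card (closure ({x, y} : Set Γ)) → q = 3 ∨ q = p)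
    (hx3 : ρ x ^ 3 = 1)
    (hx : Module.finrank (ZMod 2) (W ρ x) = 2) (hy : Module.finrank (ZMod 2) (W ρ y) = 2) :
    W ρ x = W ρ y ∨ TypeA ρ x y ∨
      (p = 7 ∧ ∃ z : Γ, (∃ b : ℕ, z ^ 7 ^ b = 1) ∧ ρ z ^ 7 = 1 ∧
        Module.finrank (ZMod 2) (W ρ z) = 3 ∧ W ρ x ≤ W ρ z) := by
  classical
  haveI : Module.Finite (ZMod 2) A := Module.Finite.of_finite
  set T : Subgroup Γ := closure ({x, y} : Set Γ) with hTdef
  have hodd : Odd (Nat.card T) := by
    rw [← Nat.not_even_iff_odd, even_iff_two_dvd]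
    intro h
    rcases hT 2 Nat.prime_two h with h2 | h2
    · omega
    · exact hp2 h2.symm
  set D := W ρ x ⊔ W ρ y with hD
  have hsum := Submodule.finrank_sup_add_finrank_inf_eq (W ρ x) (W ρ y)
  rw [hx, hy] at hsum
  have hle1 : 2 ≤ Module.finrank (ZMod 2) D :=
    hx.symm.le.trans (Submodule.finrank_mono le_sup_left)
  have hle2 : Module.finrank (ZMod 2) D ≤ 4 := by
    rw [hD]; omega
  have hxT : x ∈ T := subset_closure (Or.inl rfl)
  have hyT : y ∈ T := subset_closure (Or.inr rfl)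
  have hxne : ρ x ≠ 1 := by
    intro h
    have h1 : W ρ x = ⊥ := by
      rw [eq_bot_iff]
      intro v hv
      obtain ⟨a, rfl⟩ := (mem_W_iff ρ).1 hv
      rw [h]; simp
    rw [h1, finrank_bot_of_eq rfl] at hx
    omega
  have hcases : Module.finrank (ZMod 2) D = 2 ∨ Module.finrank (ZMod 2) D = 3 ∨
      Module.finrank (ZMod 2) D = 4 := by omega
  rcases hcases with he | he | he
  · -- `e = 2`
    left
    have h1 : W ρ x = D := Submodule.eq_of_le_of_finrank_eq le_sup_left (by rw [hx, he])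
    have h2 : W ρ y = D := Submodule.eq_of_le_of_finrank_eq le_sup_right (by rw [hy, he])
    rw [h1, h2]
  · -- `e = 3`
    obtain ⟨φ, hφ⟩ := exists_env (ρ := ρ) x y hodd 3 he
    have henv := hφ.range
    let φ' := φ.rangeRestrict
    have hs : Function.Surjective φ' := φ.rangeRestrict_surjective
    have hn168 : Nat.card φ.range ∣ 168 := by
      rw [← card_GL3]; exact Subgroup.card_subgroup_dvd_card _
    have hnT : Nat.card φ.range ∣ Nat.card T := by
      rw [← Subgroup.index_ker]; exact Subgroup.index_dvd_card _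
    have hnodd : Odd (Nat.card φ.range) := Odd.of_dvd_nat hodd hnT
    by_cases h7 : 7 ∣ Nat.card φ.range
    · -- type (b)
      have hp7 : p = 7 := by
        rcases hT 7 (by norm_num) (h7.trans hnT) with h | h
        · omega
        · exact h.symm
      subst hp7
      right; right
      refine ⟨rfl, ?_⟩
      haveI : Fact (Nat.Prime 7) := ⟨by norm_num⟩
      obtain ⟨u, hu⟩ := exists_prime_orderOf_dvd_card' (G := φ.range) 7 h7
      obtain ⟨t, ht⟩ := hs u
      obtain ⟨a, b, h1, h2, h3⟩ := lift_q φ' (by norm_num) (by norm_num) hT t (by rw [ht]; exact hu)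
      set z : T := t ^ 3 ^ a with hz
      have hzb' : z.1 ^ 7 ^ b = 1 := by
        have := congrArg Subtype.val h1
        simpa using this
      have hz7 : ρ z.1 ^ 7 = 1 := by
        have h4 : φ' (z ^ 7) = 1 := by rw [map_pow]; exact h3
        have h5 := (henv.hφ _).1 h4
        have h6 : (z ^ 7).1 = z.1 ^ 7 := by simp
        rw [h6, map_pow] at h5
        exact h5
      have hzT : zpowers z.1 ≤ T := by rw [zpowers_le]; exact z.2
      have hpg : IsPGroup 7 (zpowers z.1) := isPGroup_zpowers z.1 hzb'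
      have h2' := two_pow_modEq ρ (zpowers z.1) hpg D (fun g hg u hu => henv.stab (hzT hg) hu)
      rw [he] at h2'
      set L := D ⊓ Cs ρ (zpowers z.1) with hL
      have hLD : L ≤ D := inf_le_left
      have hf3 : Module.finrank (ZMod 2) L ≤ 3 := by
        rw [← he]; exact Submodule.finrank_mono hLD
      rcases aux_mod7' hf3 h2' with hf | hf
      · have hLbot : L = ⊥ := Submodule.finrank_eq_zero.1 hf
        let ψ : ↥D →ₗ[ZMod 2] A := (ρ z.1 - 1).comp D.subtype
        have hinj : Function.Injective ψ := by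
          rw [← LinearMap.ker_eq_bot, eq_bot_iff]
          intro v hv
          have hv' : ρ z.1 v.1 - v.1 = 0 := LinearMap.mem_ker.1 hv
          have h8 : v.1 ∈ L := ⟨v.2, (mem_Cs_zpowers ρ).2 (sub_eq_zero.1 hv')⟩
          rw [hLbot, Submodule.mem_bot] at h8
          rw [Submodule.mem_bot]
          exact Subtype.ext h8
        have hr := LinearMap.finrank_range_of_inj hinj
        rw [he] at hr
        have hrW : LinearMap.range ψ ≤ W ρ z.1 := by
          rintro _ ⟨v, rfl⟩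
          exact ⟨v.1, rfl⟩
        have hWD : W ρ z.1 ≤ D := henv.hW _ z.2
        have h9 : 3 ≤ Module.finrank (ZMod 2) (W ρ z.1) := by
          rw [← hr]; exact Submodule.finrank_mono hrW
        have h10 : Module.finrank (ZMod 2) (W ρ z.1) ≤ 3 := by
          rw [← he]; exact Submodule.finrank_mono hWD
        have h11 : Module.finrank (ZMod 2) (W ρ z.1) = 3 := le_antisymm h10 h9
        have h12 : W ρ z.1 = D := Submodule.eq_of_le_of_finrank_eq hWD (by rw [h11, he])
        refine ⟨z.1, ⟨b, hzb'⟩, hz7, h11, ?_⟩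
        rw [h12]
        exact le_sup_left
      · exfalso
        have hLeq : L = D := Submodule.eq_of_le_of_finrank_eq hLD (by rw [hf, he])
        apply h2
        rw [henv.fix_iff]
        intro u hu
        have hu' : u ∈ L := hLeq ▸ hu
        exact (mem_Cs_zpowers ρ).1 hu'.2
    · -- the image has order at most three
      left
      have hn21 : Nat.card φ.range ∣ 21 := by
        have hcop : Nat.Coprime (Nat.card φ.range) 8 :=
          Nat.Coprime.pow_right 3 (Nat.coprime_two_right.2 hnodd)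
        exact hcop.dvd_of_dvd_mul_left (by simpa using hn168)
      have hn3 : Nat.card φ.range ∣ 3 := by
        have hcop : Nat.Coprime (Nat.card φ.range) 7 :=
          ((Nat.Prime.coprime_iff_not_dvd (by norm_num)).2 h7).symm
        exact hcop.dvd_of_dvd_mul_right (by simpa using hn21)
      let x' : T := ⟨x, hxT⟩
      let y' : T := ⟨y, hyT⟩
      have hx1 : φ' x' ≠ 1 := fun h => hxne ((henv.hφ x').1 h)
      have hc3 : Nat.card φ.range = 3 := by
        rcases (Nat.dvd_prime Nat.prime_three).1 hn3 with h | h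
        · exfalso
          haveI := (Nat.card_eq_one_iff_unique.1 h).1
          exact hx1 (Subsingleton.elim _ _)
        · exact h
      haveI : Fact (Nat.Prime 3) := ⟨Nat.prime_three⟩
      have hmem : φ' y' ∈ zpowers (φ' x') := mem_zpowers_of_prime_card hc3 hx1
      obtain ⟨k, hk⟩ := hmem
      have h1 : φ' y' = φ' (x' ^ k) := by rw [map_zpow]; exact hk.symm
      have h2 := henv.rho_eq h1
      have h3 : W ρ y = W ρ (x' ^ k).1 := W_eq_of_rho_eq ρ h2
      have h4 : W ρ (x' ^ k).1 ≤ W ρ x := by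
        refine W_closure_le ρ (s := {x}) ?_ ?_
        · intro g hg; rw [Set.mem_singleton_iff.1 hg]
        · rw [← zpowers_eq_closure]
          exact ⟨k, by simp [x']⟩
      exact (Submodule.eq_of_le_of_finrank_eq (h3 ▸ h4) (hy.trans hx.symm)).symm
  · -- `e = 4`
    obtain ⟨φ, hφ⟩ := exists_env (ρ := ρ) x y hodd 4 he
    have henv := hφ.range
    let φ' := φ.rangeRestrict
    have hs : Function.Surjective φ' := φ.rangeRestrict_surjective
    have hn20160 : Nat.card φ.range ∣ 20160 := by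
      rw [← card_GL4]; exact Subgroup.card_subgroup_dvd_card _
    have hnT : Nat.card φ.range ∣ Nat.card T := by
      rw [← Subgroup.index_ker]; exact Subgroup.index_dvd_card _
    have hnodd : Odd (Nat.card φ.range) := Odd.of_dvd_nat hodd hnT
    have hn315 : Nat.card φ.range ∣ 315 := by
      have hcop : Nat.Coprime (Nat.card φ.range) 64 :=
        Nat.Coprime.pow_right 6 (Nat.coprime_two_right.2 hnodd)
      exact hcop.dvd_of_dvd_mul_left (by simpa using hn20160)
    let x' : T := ⟨x, hxT⟩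
    have hx1 : φ' x' ≠ 1 := fun h => hxne ((henv.hφ x').1 h)
    have hx3' : (φ' x') ^ 3 = 1 := by
      rw [← map_pow]
      apply (henv.hφ _).2
      have h6 : (x' ^ 3).1 = x ^ 3 := by simp [x']
      rw [h6, map_pow]
      exact hx3
    have h9d : ∀ q, q.Prime → q ≠ 3 → ∀ d, d ∣ 9 → d % q = 1 → q = 5 ∨ q = 7 → d = 1 := by
      intro q _ _ d hd hdq hq
      have hd9 : d ≤ 9 := Nat.le_of_dvd (by norm_num) hd
      rcases hq with rfl | rfl <;> interval_cases d <;> simp_all
    have hno7 : ¬ 7 ∣ Nat.card φ.range := by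
      intro h7
      have hp7 : p = 7 := by
        rcases hT 7 (by norm_num) (h7.trans hnT) with h | h
        · omega
        · exact h.symm
      subst hp7
      haveI : Fact (Nat.Prime 7) := ⟨by norm_num⟩
      have hno5 : ¬ 5 ∣ Nat.card φ.range := by
        intro h5
        rcases hT 5 (by norm_num) (h5.trans hnT) with h | h <;> omega
      have hn63 : Nat.card φ.range ∣ 7 * 9 := by
        have hcop : Nat.Coprime (Nat.card φ.range) 5 :=
          ((Nat.Prime.coprime_iff_not_dvd (by norm_num)).2 hno5).symm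
        exact hcop.dvd_of_dvd_mul_left (by simpa using hn315)
      obtain ⟨P, hPn, hPc⟩ := normal_prime (G := φ.range) (q := 7) 9 hn63 (by norm_num) h7
        (fun d hd hdq => h9d 7 (by norm_num) (by norm_num) d hd hdq (Or.inr rfl))
      obtain ⟨z, b, h1, h2, _, h4⟩ := exists_normal_elt φ' hs (q := 7) (by norm_num) hT P hPn hPc
      exact case_q7 φ' henv he z b h1 h2 h4
    have hno5 : ¬ 5 ∣ Nat.card φ.range := by
      intro h5
      have hp5 : p = 5 := by
        rcases hT 5 (by norm_num) (h5.trans hnT) with h | h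
        · omega
        · exact h.symm
      subst hp5
      haveI : Fact (Nat.Prime 5) := ⟨by norm_num⟩
      have hn45 : Nat.card φ.range ∣ 5 * 9 := by
        have hcop : Nat.Coprime (Nat.card φ.range) 7 :=
          ((Nat.Prime.coprime_iff_not_dvd (by norm_num)).2 hno7).symm
        exact hcop.dvd_of_dvd_mul_right (by simpa using hn315)
      obtain ⟨P, hPn, hPc⟩ := normal_prime (G := φ.range) (q := 5) 9 hn45 (by norm_num) h5
        (fun d hd hdq => h9d 5 (by norm_num) (by norm_num) d hd hdq (Or.inl rfl))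
      obtain ⟨z, b, h1, h2, h3, h4⟩ := exists_normal_elt φ' hs (q := 5) (by norm_num) hT P hPn hPc
      obtain ⟨k, hk⟩ := h4 x'
      exact case_q5 φ' henv he z b h1 h2 h3 x' hx3' (le_of_eq hx) hx1 k hk
    -- the image is a `3`-group
    have h3pow : Nat.card φ.range = 3 ^ (Nat.card φ.range).primeFactorsList.length := by
      refine Nat.eq_prime_pow_of_unique_prime_dvd (Nat.pos_of_ne_zero ?_).ne' ?_
      · exact Nat.card_pos.ne'
      · intro d hd hdn
        rcases hT d hd (hdn.trans hnT) with h | h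
        · exact h
        · exfalso
          subst h
          have h315 : d ∣ 315 := hdn.trans hn315
          have hdsmall : d ≤ 315 := Nat.le_of_dvd (by norm_num) h315
          have h3' : d ∣ 3 ^ 2 * 5 * 7 := by simpa using h315
          rcases (Nat.Prime.dvd_mul hd).1 h3' with h4 | h4
          · rcases (Nat.Prime.dvd_mul hd).1 h4 with h5 | h5
            · exact hp3 ((Nat.prime_dvd_prime_iff_eq hd Nat.prime_three).1 (hd.dvd_of_dvd_pow h5))
            · have := (Nat.prime_dvd_prime_iff_eq hd (by norm_num)).1 h5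
              subst this
              exact hno5 hdn
          · have := (Nat.prime_dvd_prime_iff_eq hd (by norm_num)).1 h4
            subst this
            exact hno7 hdn
    set k := (Nat.card φ.range).primeFactorsList.length with hk
    have hk2 : k ≤ 2 := by
      by_contra hh
      have h27 : 3 ^ 3 ∣ 315 := by
        refine (pow_dvd_pow 3 (by omega : 3 ≤ k)).trans ?_
        rw [← h3pow]; exact hn315
      revert h27; decide
    haveI : Fact (Nat.Prime 3) := ⟨Nat.prime_three⟩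
    have hcomm := comm_of_card hk2 h3pow
    right; left
    have hinf : Module.finrank (ZMod 2) ↥(W ρ x ⊓ W ρ y) = 0 := by
      rw [hD] at he; omega
    have hdis : Disjoint (W ρ x) (W ρ y) := by
      rw [disjoint_iff]
      exact Submodule.finrank_eq_zero.1 hinf
    exact typeA_of_commute ρ (henv.comm (g := ⟨x, hxT⟩) (k := ⟨y, hyT⟩) (hcomm _ _)) hdis

/-- **The non-cyclic lemma.** -/
theorem nc_of_stab [Finite Γ] [Finite A] {r : ℕ} [hrp : Fact r.Prime] (F : Subgroup Γ)
    (hF : Cfsg.IsElementaryAbelian r F) (hc : Nat.card F = r ^ 3) (U : Submodule (ZMod 2) A)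
    (hU : ∀ f ∈ F, ∀ u ∈ U, ρ f u ∈ U) (e : ℕ) (he : Module.finrank (ZMod 2) U = e)
    (hGL : ∀ k, r ^ k ∣ Nat.card (GL (Fin e) (ZMod 2)) → k ≤ 1) :
    ¬ IsCyclic ↥(F ⊓ Fx ρ U) := by
  classical
  intro hcyc
  have hr1 := hrp.out.one_lt
  obtain ⟨φ, hφ⟩ := exists_GL ρ F U hU e he
  have hFp : IsPGroup r F := by
    intro g
    refine ⟨1, ?_⟩
    rw [pow_one]
    apply Subtype.ext
    simpa using hF.2 g.1 g.2
  obtain ⟨k, hk⟩ := hFp.index φ.ker
  have hcard : Nat.card φ.range = r ^ k := by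
    rw [← hk, Subgroup.index_ker]
  have hk1 : k ≤ 1 := hGL k (by
    rw [← hcard]; exact Subgroup.card_subgroup_dvd_card _)
  have hker : (F ⊓ Fx ρ U).subgroupOf F = φ.ker := by
    ext g
    rw [mem_subgroupOf, MonoidHom.mem_ker, hφ]
    exact ⟨fun h => h.2, fun h => ⟨g.2, h⟩⟩
  have hrel : (F ⊓ Fx ρ U).relIndex F = r ^ k := by
    rw [Subgroup.relIndex, hker, hk]
  have hmul := Cfsg.Agent.Lib.PGroup.Critical.card_eq_mul_relIndex (inf_le_left : F ⊓ Fx ρ U ≤ F)
  rw [hc, hrel] at hmul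
  -- a cyclic subgroup of `F` has order at most `r`
  have hle : Nat.card ↥(F ⊓ Fx ρ U) ≤ r := by
    obtain ⟨g, hg⟩ := IsCyclic.exists_generator (α := ↥(F ⊓ Fx ρ U))
    have h1 : orderOf g = Nat.card ↥(F ⊓ Fx ρ U) := orderOf_eq_card_of_forall_mem_zpowers hg
    rw [← h1]
    refine Nat.le_of_dvd hrp.out.pos (orderOf_dvd_of_pow_eq_one ?_)
    apply Subtype.ext
    simpa using hF.2 g.1 g.2.1
  have hrk : r ^ k ≤ r := by
    calc r ^ k ≤ r ^ 1 := Nat.pow_le_pow_right hrp.out.pos hk1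
      _ = r := pow_one r
  have h3 : r ^ 3 ≤ r * r := by
    rw [hmul]
    exact Nat.mul_le_mul hle hrk
  have h4 : r * r < r ^ 3 := by
    rw [← sq]; exact Nat.pow_lt_pow_right hr1 (by norm_num)
  omega

end Cfsg.Agent.Lib.QFour.Pair
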