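import Mathlib
import Cfsg.Agent.Lib.QFour.Rank
import Cfsg.Agent.Lib.QFour.Pair

/-!
# Configurations of mutually trivial elements.
-/

set_option autoImplicit false
set_option linter.unusedSectionVars false
set_option linter.unusedVariables false
set_option linter.style.haveILetI false

namespace Cfsg.Agent.Lib.QFour.Config

open Subgroup Act Pair Rank
open scoped commutatorElement

variable {Γ A : Type*} [Group Γ] [AddCommGroup A] [Module (ZMod 2) A]
  (ρ : Γ →* Module.End (ZMod 2) A)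

variable {ι : Type*}

def Nf (P : Subgroup Γ) (z : ι → Γ) : Subgroup Γ := P ⊓ ⨅ i, Fx ρ (W ρ (z i))

def Lf (P : Subgroup Γ) (z : ι → Γ) : Subgroup Γ := closure (Set.range z) ⊔ Nf ρ P z

/-- A family of elements of order `r` on `A`, trivial on each other's commutator spaces. -/
structure Cfg (r : ℕ) (P : Subgroup Γ) (z : ι → Γ) : Prop where
  hP : ∀ i, z i ∈ P
  hr : ∀ i, ρ (z i) ^ r = 1
  hne : ∀ i, ρ (z i) ≠ 1
  hT : ∀ i j, i ≠ j → ∀ u ∈ W ρ (z i), ρ (z j) u = u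

variable {ρ}

theorem W_pow_stab (z : Γ) (k : ℕ) {u : A} (hu : u ∈ W ρ z) : (ρ z ^ k) u ∈ W ρ z := by
  induction k with
  | zero => simpa using hu
  | succ k ih =>
    rw [pow_succ', Module.End.mul_apply]
    exact W_stab ρ le_rfl ih

section

variable {r : ℕ} {P : Subgroup Γ} {z : ι → Γ}

/-- Subgroup of elements acting on each `W (z i)` as a power of `z i`. -/
def Pw (h : Cfg ρ r P z) (hr0 : 0 < r) : Subgroup Γ where
  carrier := {g | ∀ i, ∃ k : ℕ, ∀ u ∈ W ρ (z i), ρ g u = (ρ (z i) ^ k) u}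
  one_mem' := fun i => ⟨0, fun u _ => by simp⟩
  mul_mem' := by
    intro a b ha hb i
    obtain ⟨k, hk⟩ := ha i
    obtain ⟨l, hl⟩ := hb i
    refine ⟨k + l, fun u hu => ?_⟩
    rw [rho_mul_apply, hl u hu, hk _ (W_pow_stab _ l hu), pow_add, Module.End.mul_apply]
  inv_mem' := by
    intro a ha i
    obtain ⟨k, hk⟩ := ha i
    refine ⟨k * (r - 1), fun u hu => ?_⟩
    have hv := W_pow_stab (ρ := ρ) (z i) (k * (r - 1)) hu
    have h1 := hk _ hv
    have h2 : (ρ (z i) ^ k) ((ρ (z i) ^ (k * (r - 1))) u) = u := by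
      rw [← Module.End.mul_apply, ← pow_add]
      have : k + k * (r - 1) = r * k := by
        obtain ⟨s, rfl⟩ : ∃ s, r = s + 1 := ⟨r - 1, by omega⟩
        simp; ring
      rw [this, pow_mul, h.hr i, one_pow]
      rfl
    rw [h2] at h1
    calc ρ a⁻¹ u = ρ a⁻¹ (ρ a ((ρ (z i) ^ (k * (r - 1))) u)) := by rw [h1]
      _ = _ := rho_inv_apply ρ a _

theorem Nf_le_Lf : Nf ρ P z ≤ Lf ρ P z := le_sup_right

theorem Lf_le (h : Cfg ρ r P z) : Lf ρ P z ≤ P := by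
  refine sup_le ((closure_le _).2 ?_) inf_le_left
  rintro _ ⟨i, rfl⟩
  exact h.hP i

theorem Lf_le_Pw (h : Cfg ρ r P z) (hr0 : 0 < r) : Lf ρ P z ≤ Pw h hr0 := by
  classical
  refine sup_le ((closure_le _).2 ?_) ?_
  · rintro _ ⟨j, rfl⟩ i
    by_cases hij : i = j
    · subst hij
      exact ⟨1, fun u _ => by simp⟩
    · exact ⟨0, fun u hu => by
        rw [h.hT i j hij u hu]; simp⟩
  · intro n hn i
    refine ⟨0, fun u hu => ?_⟩
    have h1 : n ∈ ⨅ i, Fx ρ (W ρ (z i)) := hn.2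
    have h2 : n ∈ Fx ρ (W ρ (z i)) := (Subgroup.mem_iInf.1 h1) i
    rw [h2 u hu]; simp

theorem Lf_form (h : Cfg ρ r P z) (hr0 : 0 < r) {g : Γ} (hg : g ∈ Lf ρ P z) (i : ι) :
    ∃ k : ℕ, ∀ u ∈ W ρ (z i), ρ g u = (ρ (z i) ^ k) u :=
  Lf_le_Pw h hr0 hg i

theorem Lf_stab (h : Cfg ρ r P z) (hr0 : 0 < r) {g : Γ} (hg : g ∈ Lf ρ P z) (i : ι) {u : A}
    (hu : u ∈ W ρ (z i)) : ρ g u ∈ W ρ (z i) := by
  obtain ⟨k, hk⟩ := Lf_form h hr0 hg i
  rw [hk u hu]
  exact W_pow_stab _ k hu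

theorem mem_Nf {g : Γ} : g ∈ Nf ρ P z ↔ g ∈ P ∧ ∀ i, ∀ u ∈ W ρ (z i), ρ g u = u := by
  constructor
  · rintro ⟨h1, h2⟩
    exact ⟨h1, fun i => (Subgroup.mem_iInf.1 h2) i⟩
  · rintro ⟨h1, h2⟩
    exact ⟨h1, Subgroup.mem_iInf.2 h2⟩

theorem Lf_comm (h : Cfg ρ r P z) (hr0 : 0 < r) {g k : Γ} (hg : g ∈ Lf ρ P z) (hk : k ∈ Lf ρ P z) :
    ⁅g, k⁆ ∈ Nf ρ P z := by
  rw [mem_Nf]
  have hL := Lf_le h
  refine ⟨?_, fun i u hu => ?_⟩
  · rw [commutatorElement_def]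
    exact P.mul_mem (P.mul_mem (P.mul_mem (hL hg) (hL hk)) (P.inv_mem (hL hg))) (P.inv_mem (hL hk))
  · -- the two actions commute on `W (z i)`
    obtain ⟨a, ha⟩ := Lf_form h hr0 hg i
    obtain ⟨b, hb⟩ := Lf_form h hr0 hk i
    have hcomm : ∀ v ∈ W ρ (z i), ρ g (ρ k v) = ρ k (ρ g v) := by
      intro v hv
      rw [hb v hv, ha _ (W_pow_stab _ b hv), ha v hv, hb _ (W_pow_stab _ a hv),
        ← Module.End.mul_apply, ← Module.End.mul_apply, ← pow_add, ← pow_add, add_comm]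
    have hinv : ρ (k * g)⁻¹ u ∈ W ρ (z i) := by
      apply Lf_stab h hr0 _ i hu
      exact (Lf ρ P z).inv_mem ((Lf ρ P z).mul_mem hk hg)
    have h1 := hcomm _ hinv
    have h2 : ρ k (ρ g (ρ (k * g)⁻¹ u)) = u := by
      rw [← rho_mul_apply, rho_apply_inv]
    rw [h2] at h1
    have h3 : ⁅g, k⁆ = g * k * (k * g)⁻¹ := by
      rw [commutatorElement_def]; group
    rw [h3, rho_mul_apply, rho_mul_apply]
    exact h1

theorem Lf_pow (h : Cfg ρ r P z) (hr0 : 0 < r) {g : Γ} (hg : g ∈ Lf ρ P z) : g ^ r ∈ Nf ρ P z := by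
  rw [mem_Nf]
  refine ⟨P.pow_mem (Lf_le h hg) _, fun i u hu => ?_⟩
  obtain ⟨a, ha⟩ := Lf_form h hr0 hg i
  have h1 : ∀ n : ℕ, ρ (g ^ n) u = (ρ (z i) ^ (a * n)) u := by
    intro n
    induction n with
    | zero => simp
    | succ n ih =>
      rw [pow_succ', rho_mul_apply, ih, ha _ (W_pow_stab _ _ hu), ← Module.End.mul_apply, ← pow_add]
      congr 2
      ring
  rw [h1 r, mul_comm, pow_mul, h.hr i, one_pow]
  rfl

theorem Lf_norm (h : Cfg ρ r P z) (hr0 : 0 < r) {g n : Γ} (hg : g ∈ Lf ρ P z) (hn : n ∈ Nf ρ P z) :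
    g * n * g⁻¹ ∈ Nf ρ P z := by
  rw [mem_Nf] at hn ⊢
  refine ⟨P.mul_mem (P.mul_mem (Lf_le h hg) hn.1) (P.inv_mem (Lf_le h hg)), fun i u hu => ?_⟩
  have h1 : ρ g⁻¹ u ∈ W ρ (z i) := Lf_stab h hr0 ((Lf ρ P z).inv_mem hg) i hu
  rw [rho_mul_apply, rho_mul_apply, hn.2 i _ h1, rho_apply_inv]

/-- A nontrivial power of `z i` moves its commutator space. -/
theorem moved [Fact r.Prime] (hr2 : r ≠ 2) {y : Γ} (hy : ρ y ^ r = 1) (hne : ρ y ≠ 1) {c : ℕ} (h0 : 0 < c)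
    (hc : c < r) : ¬ ∀ u ∈ W ρ y, (ρ y ^ c) u = u := by
  intro hfix
  have hrp : r.Prime := Fact.out
  have hcop : Nat.Coprime c r := ((Nat.Prime.coprime_iff_not_dvd hrp).2 (fun h =>
    absurd (Nat.le_of_dvd h0 h) (by omega))).symm
  obtain ⟨m, -, hm⟩ := Nat.exists_mul_mod_eq_one_of_coprime hcop hrp.one_lt
  have h1 : ∀ u ∈ W ρ y, ρ y u = u := by
    intro u hu
    have h2 : ρ y = ρ y ^ (c * m) := by
      rw [pow_eq_pow_mod (c * m) hy, hm, pow_one]
    have h3 : ∀ m : ℕ, ((ρ y ^ c) ^ m) u = u := by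
      intro m
      induction m with
      | zero => simp
      | succ m ih =>
        rw [pow_succ, Module.End.mul_apply, hfix u hu, ih]
    rw [h2, pow_mul]
    exact h3 m
  apply hne
  ext a
  have hw := mem_W ρ y a
  set w := ρ y a - a with hwdef
  have hya : ρ y a = a + w := by rw [hwdef]; abel
  have h2 : ∀ n : ℕ, (ρ y ^ n) a = a + n • w := by
    intro n
    induction n with
    | zero => simp
    | succ n ih =>
      rw [pow_succ', Module.End.mul_apply, ih, map_add, hya, map_nsmul, h1 w hw, succ_nsmul]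
      abel
  have h3 := h2 r
  rw [hy, Module.End.one_apply] at h3
  have hodd : r • w = w := by
    obtain ⟨k, hk⟩ := hrp.odd_of_ne_two hr2
    rw [hk, add_smul, one_smul, mul_comm, mul_smul, two_smul, add_self', smul_zero, zero_add]
  rw [hodd] at h3
  have hw0 : w = 0 := by
    have := add_eq_left.1 h3.symm
    exact this
  rw [hya, hw0, add_zero]
  rfl

/-- The chain of subgroups used to bound the index. -/
def Kf (ρ : Γ →* Module.End (ZMod 2) A) (P : Subgroup Γ) (z : ι → Γ) (s : Finset ι) : Subgroup Γ :=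
  Lf ρ P z ⊓ ⨅ i, ⨅ (_ : i ∉ s), Fx ρ (W ρ (z i))

theorem mem_Kf {s : Finset ι} {g : Γ} :
    g ∈ Kf ρ P z s ↔ g ∈ Lf ρ P z ∧ ∀ i, i ∉ s → ∀ u ∈ W ρ (z i), ρ g u = u := by
  constructor
  · rintro ⟨h1, h2⟩
    exact ⟨h1, fun i hi => (Subgroup.mem_iInf.1 ((Subgroup.mem_iInf.1 h2) i)) hi⟩
  · rintro ⟨h1, h2⟩
    exact ⟨h1, Subgroup.mem_iInf.2 fun i => Subgroup.mem_iInf.2 fun hi => h2 i hi⟩

theorem Kf_mono {s s' : Finset ι} (h : s ⊆ s') : Kf ρ P z s ≤ Kf ρ P z s' := by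
  intro g hg
  rw [mem_Kf] at hg ⊢
  exact ⟨hg.1, fun i hi => hg.2 i (fun hh => hi (h hh))⟩

theorem index_step [Finite Γ] [DecidableEq ι] [hrp : Fact r.Prime] (hr2 : r ≠ 2) (h : Cfg ρ r P z)
    {s : Finset ι} {i : ι} (hi : i ∉ s) : r ≤ (Kf ρ P z s).relIndex (Kf ρ P z (insert i s)) := by
  classical
  set K := Kf ρ P z s
  set Kn := Kf ρ P z (insert i s)
  have hy : z i ∈ Kn := by
    rw [mem_Kf]
    refine ⟨(le_sup_left : closure (Set.range z) ≤ Lf ρ P z) (subset_closure ⟨i, rfl⟩), fun j hj u hu => ?_⟩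
    have hji : j ≠ i := fun hh => hj (hh ▸ Finset.mem_insert_self _ _)
    exact h.hT j i hji u hu
  have hnot : ∀ a b : ℕ, a < b → b < r → (z i ^ a)⁻¹ * z i ^ b ∉ K := by
    intro a b hab hb hK
    have h1 := (mem_Kf.1 hK).2 i hi
    have h2 : (z i ^ a)⁻¹ * z i ^ b = z i ^ (b - a) := by
      rw [inv_mul_eq_iff_eq_mul, ← pow_add]
      congr 1
      omega
    rw [h2, map_pow] at h1
    exact moved hr2 (h.hr i) (h.hne i) (by omega : 0 < b - a) (by omega) h1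
  let f : Fin r → Kn ⧸ (K.subgroupOf Kn) :=
    fun a => QuotientGroup.mk (⟨z i ^ a.1, Kn.pow_mem hy _⟩ : Kn)
  have hf : Function.Injective f := by
    intro a b hab
    have h1 := QuotientGroup.eq.1 hab
    rw [mem_subgroupOf] at h1
    have h2 : (z i ^ a.1)⁻¹ * z i ^ b.1 ∈ K := by
      simpa using h1
    rcases lt_trichotomy a.1 b.1 with h3 | h3 | h3
    · exact absurd h2 (hnot _ _ h3 b.2)
    · exact Fin.ext h3
    · have h4 : (z i ^ b.1)⁻¹ * z i ^ a.1 ∈ K := by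
        have := K.inv_mem h2
        simpa using this
      exact absurd h4 (hnot _ _ h3 a.2)
  have h3 := Nat.card_le_card_of_injective f hf
  rw [Nat.card_eq_fintype_card, Fintype.card_fin] at h3
  exact h3

theorem index_main [Finite Γ] [DecidableEq ι] [hrp : Fact r.Prime] (hr2 : r ≠ 2) (h : Cfg ρ r P z)
    (s : Finset ι) : r ^ s.card ≤ (Kf ρ P z ∅).relIndex (Kf ρ P z s) := by
  classical
  induction s using Finset.induction_on with
  | empty =>
    simp only [Finset.card_empty, pow_zero]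
    exact relIndex_pos' _ _
  | insert i s hi ih =>
    rw [Finset.card_insert_of_notMem hi, pow_succ,
      ← relIndex_mul_relIndex _ _ _ (Kf_mono (Finset.empty_subset s)) (Kf_mono (Finset.subset_insert i s))]
    exact Nat.mul_le_mul ih (index_step hr2 h hi)

theorem Lf_idx [Finite Γ] [Fintype ι] [DecidableEq ι] [hrp : Fact r.Prime] (hr2 : r ≠ 2)
    (h : Cfg ρ r P z) : r ^ Fintype.card ι ≤ (Nf ρ P z).relIndex (Lf ρ P z) := by
  have h1 := index_main hr2 h (Finset.univ : Finset ι)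
  rw [Finset.card_univ] at h1
  have h2 : Kf ρ P z (Finset.univ : Finset ι) = Lf ρ P z := by
    apply le_antisymm inf_le_left
    intro g hg
    exact mem_Kf.2 ⟨hg, fun i hi => absurd (Finset.mem_univ i) hi⟩
  have h3 : Kf ρ P z (∅ : Finset ι) = Nf ρ P z := by
    apply le_antisymm
    · intro g hg
      rw [mem_Kf] at hg
      rw [mem_Nf]
      exact ⟨Lf_le h hg.1, fun i => hg.2 i (Finset.notMem_empty i)⟩
    · intro g hg
      have hg' := mem_Nf.1 hg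
      exact mem_Kf.2 ⟨Nf_le_Lf hg, fun i _ => hg'.2 i⟩
  rw [h2, h3] at h1
  exact h1

end

theorem conj_pow_rho {z g : Γ} {r : ℕ} (h : ρ z ^ r = 1) : ρ (g * z * g⁻¹) ^ r = 1 := by
  ext a
  rw [← map_pow, conj_pow, rho_mul_apply, rho_mul_apply, map_pow, h, Module.End.one_apply,
    rho_apply_inv, Module.End.one_apply]

theorem conj_ne_rho {z g : Γ} (h : ρ z ≠ 1) : ρ (g * z * g⁻¹) ≠ 1 := by
  intro h2
  apply h
  have h3 : z = g⁻¹ * (g * z * g⁻¹) * g := by group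
  rw [h3, map_mul, map_mul, h2, mul_one, ← map_mul, inv_mul_cancel, map_one]

theorem W_finrank_conj [Finite A] {z : Γ} (g : Γ) :
    Module.finrank (ZMod 2) (W ρ (g * z * g⁻¹)) = Module.finrank (ZMod 2) (W ρ z) := by
  rw [W_conj]
  have hinj : Function.Injective (ρ g) := by
    intro a b hab
    have := congrArg (ρ g⁻¹) hab
    rwa [rho_inv_apply, rho_inv_apply] at this
  exact (LinearEquiv.finrank_eq (Submodule.equivMapOfInjective (ρ g) hinj (W ρ z))).symm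

/-- **Orbit lemma.** -/
theorem exists_of_orbit [Finite Γ] {r : ℕ} [hrp : Fact r.Prime] (hr2 : r ≠ 2) (z : Γ)
    (hzr : ρ z ^ r = 1) (hne : ρ z ≠ 1) (e : Γ) (s : ℕ) (hs : 4 ≤ s)
    (hpairs : ∀ k, 0 < k → k < s → TypeA ρ z (e ^ k * z * (e ^ k)⁻¹)) :
    ∃ F : Subgroup Γ, Cfsg.IsElementaryAbelian r F ∧ Nat.card F = r ^ 3 ∧
      ∀ f ∈ F, ∀ u ∈ W ρ z, ρ f u ∈ W ρ z := by
  classical
  let zz : Fin 4 → Γ := fun i => e ^ i.1 * z * (e ^ i.1)⁻¹
  have hcfg : Cfg ρ r ⊤ zz := by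
    refine ⟨fun _ => mem_top _, fun i => conj_pow_rho hzr, fun i => conj_ne_rho hne, ?_⟩
    have key : ∀ a b : ℕ, a < b → b < s → TypeA ρ (e ^ a * z * (e ^ a)⁻¹) (e ^ b * z * (e ^ b)⁻¹) := by
      intro a b hab hb
      have h1 := (hpairs (b - a) (by omega) (by omega)).conj (e ^ a)
      have h2 : e ^ a * (e ^ (b - a) * z * (e ^ (b - a))⁻¹) * (e ^ a)⁻¹ = e ^ b * z * (e ^ b)⁻¹ := by
        have h3 : e ^ b = e ^ a * e ^ (b - a) := by
          rw [← pow_add]; congr 1; omega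
        rw [h3]; group
      rwa [h2] at h1
    intro i j hij u hu
    rcases lt_or_gt_of_ne (fun h => hij (Fin.ext h) : i.1 ≠ j.1) with h | h
    · exact (key i.1 j.1 h (by have := j.2; omega)).1 u hu
    · exact (key j.1 i.1 h (by have := i.2; omega)).2 u hu
  have hidx := Lf_idx hr2 hcfg
  rw [Fintype.card_fin] at hidx
  have hr0 := hrp.out.pos
  obtain ⟨F, hFL, hFE, hFc⟩ := exists_ea_of_relIndex hr2 (Lf ρ ⊤ zz) (Nf ρ ⊤ zz) Nf_le_Lf
    (fun k hk n hn => Lf_norm hcfg hr0 hk hn) (fun g hg h hh => Lf_comm hcfg hr0 hg hh)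
    (fun g hg => Lf_pow hcfg hr0 hg) hidx
  refine ⟨F, hFE, hFc, fun f hf u hu => ?_⟩
  have h0 : zz 0 = z := by simp [zz]
  have := Lf_stab hcfg hr0 (hFL hf) 0 (u := u) (by rw [h0]; exact hu)
  rwa [h0] at this

/-- **Shift case.** -/
theorem exists_of_shift [Finite Γ] (P : Subgroup Γ) (hP : IsPGroup 3 P) (z e : Γ) (hz : z ∈ P)
    (he : e ∈ P) (he3 : e ^ 3 = 1) (hzr : ρ z ^ 3 = 1) (hne : ρ z ≠ 1)
    (h1 : TypeA ρ z (e * z * e⁻¹)) (h2 : TypeA ρ z (e * (e * z * e⁻¹) * e⁻¹)) :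
    ∃ F : Subgroup Γ, Cfsg.IsElementaryAbelian 3 F ∧ Nat.card F = 3 ^ 3 ∧
      ∀ f ∈ F, ∀ u ∈ W ρ z, ρ f u ∈ W ρ z := by
  classical
  set x₁ : Γ := e * z * e⁻¹ with hx₁
  set x₂ : Γ := e * x₁ * e⁻¹ with hx₂
  have hx₃ : e * x₂ * e⁻¹ = z := by
    have h3 : e * x₂ * e⁻¹ = e ^ 3 * z * (e ^ 3)⁻¹ := by
      rw [hx₂, hx₁]; simp only [pow_succ, pow_zero, one_mul, mul_inv_rev, mul_assoc]
    rw [h3, he3]; group
  let zz : Fin 3 → Γ := ![z, x₁, x₂]
  have hz0 : zz 0 = z := rfl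
  have hz1 : zz 1 = x₁ := rfl
  have hz2 : zz 2 = x₂ := rfl
  have hsucc : ∀ i, ∃ j, e * zz i * e⁻¹ = zz j := by
    intro i
    fin_cases i
    · exact ⟨1, rfl⟩
    · exact ⟨2, rfl⟩
    · exact ⟨0, hx₃⟩
  have hpred : ∀ i, ∃ j, e * zz j * e⁻¹ = zz i := by
    intro i
    fin_cases i
    · exact ⟨2, hx₃⟩
    · exact ⟨0, rfl⟩
    · exact ⟨1, rfl⟩
  have hx₁P : x₁ ∈ P := P.mul_mem (P.mul_mem he hz) (P.inv_mem he)
  have hx₂P : x₂ ∈ P := P.mul_mem (P.mul_mem he hx₁P) (P.inv_mem he)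
  have h12 : TypeA ρ x₁ x₂ := h1.conj e
  have hcfg : Cfg ρ 3 P zz := by
    refine ⟨?_, ?_, ?_, ?_⟩
    · intro i; fin_cases i
      · exact hz
      · exact hx₁P
      · exact hx₂P
    · intro i; fin_cases i
      · exact hzr
      · exact conj_pow_rho hzr
      · exact conj_pow_rho (conj_pow_rho hzr)
    · intro i; fin_cases i
      · exact hne
      · exact conj_ne_rho hne
      · exact conj_ne_rho (conj_ne_rho hne)
    · intro i j hij u hu
      fin_cases i <;> fin_cases j <;> first | exact absurd rfl hij | skip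
      · exact h1.1 u hu
      · exact h2.1 u hu
      · exact h1.2 u hu
      · exact h12.1 u hu
      · exact h2.2 u hu
      · exact h12.2 u hu
  have hidx := Lf_idx (by norm_num) hcfg
  rw [Fintype.card_fin] at hidx
  have hr0 : 0 < 3 := by norm_num
  set L := Lf ρ P zz with hL
  set N := Nf ρ P zz with hN
  have hNL : N ≤ L := Nf_le_Lf
  have hLP : L ≤ P := Lf_le hcfg
  -- conjugation by `e`
  have heL : ∀ g ∈ L, e * g * e⁻¹ ∈ L := by
    have hle : L ≤ L.comap (MulAut.conj e).toMonoidHom := by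
      refine sup_le ((closure_le _).2 ?_) ?_
      · rintro _ ⟨i, rfl⟩
        obtain ⟨j, hj⟩ := hsucc i
        show (MulAut.conj e) (zz i) ∈ L
        rw [MulAut.conj_apply, hj]
        exact (le_sup_left : closure (Set.range zz) ≤ L) (subset_closure ⟨j, rfl⟩)
      · intro n hn
        rw [mem_Nf] at hn
        show (MulAut.conj e) n ∈ L
        rw [MulAut.conj_apply]
        apply hNL
        rw [mem_Nf]
        refine ⟨P.mul_mem (P.mul_mem he hn.1) (P.inv_mem he), fun i u hu => ?_⟩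
        obtain ⟨j, hj⟩ := hpred i
        rw [← hj, W_conj] at hu
        obtain ⟨v, hv, rfl⟩ := hu
        show ρ (e * n * e⁻¹) (ρ e v) = ρ e v
        rw [rho_conj_apply, hn.2 j v hv]
    exact fun g hg => hle hg
  have heN : ∀ g ∈ N, e * g * e⁻¹ ∈ N := by
    intro n hn
    rw [mem_Nf] at hn ⊢
    refine ⟨P.mul_mem (P.mul_mem he hn.1) (P.inv_mem he), fun i u hu => ?_⟩
    obtain ⟨j, hj⟩ := hpred i
    rw [← hj, W_conj] at hu
    obtain ⟨v, hv, rfl⟩ := hu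
    show ρ (e * n * e⁻¹) (ρ e v) = ρ e v
    rw [rho_conj_apply, hn.2 j v hv]
  have hzL : z ∈ L := (le_sup_left : closure (Set.range zz) ≤ L) (subset_closure ⟨0, rfl⟩)
  have hgen : L ≤ closure {z, e * z * e⁻¹, e * (e * z * e⁻¹) * e⁻¹} ⊔ N := by
    refine sup_le ((closure_le _).2 ?_) le_sup_right
    rintro _ ⟨i, rfl⟩
    apply (le_sup_left : closure {z, e * z * e⁻¹, e * (e * z * e⁻¹) * e⁻¹} ≤ _)
    apply Subgroup.subset_closure
    fin_cases i
    · exact Or.inl rfl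
    · exact Or.inr (Or.inl rfl)
    · exact Or.inr (Or.inr rfl)
  obtain ⟨F, hFL, hFE, hFc⟩ := shift_ambient P L N hP hLP hNL
    (fun g hg n hn => Lf_norm hcfg hr0 hg hn) e z he he3 hzL heL heN
    (fun g hg h hh => Lf_comm hcfg hr0 hg hh) (fun g hg => Lf_pow hcfg hr0 hg) hgen
    (by simpa using hidx)
  refine ⟨F, hFE, hFc, fun f hf u hu => ?_⟩
  have := Lf_stab hcfg hr0 (hFL hf) 0 (u := u) (by rw [hz0]; exact hu)
  rwa [hz0] at this

end Cfsg.Agent.Lib.QFour.Config
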