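import Mathlib
import Cfsg.Agent.Lib.QFour.Config
import Cfsg.Agent.Lib.Solvable.Hall

/-!
# Main theorem: elementary abelian `E(r³)` with non-cyclic centralizer of the four-group `[Q, M]`.
-/

set_option autoImplicit false
set_option linter.unusedSectionVars false
set_option linter.unusedVariables false
set_option linter.style.haveILetI false

namespace Cfsg.Agent.Lib.QFour.Main

open Subgroup Act Pair Rank Config
open scoped commutatorElement

variable {Γ A : Type*} [Group Γ] [AddCommGroup A] [Module (ZMod 2) A]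
  {ρ : Γ →* Module.End (ZMod 2) A}

theorem not_cyclic_mono {G : Type*} [Group G] {H K : Subgroup G} (hHK : H ≤ K) (h : ¬ IsCyclic H) :
    ¬ IsCyclic K := by
  intro hK
  apply h
  exact isCyclic_of_surjective (Subgroup.subgroupOfEquivOfLe hHK).toMonoidHom
    (Subgroup.subgroupOfEquivOfLe hHK).surjective

theorem gl2_bound {r : ℕ} (hr : r.Prime) (hr2 : r ≠ 2) (k : ℕ)
    (h : r ^ k ∣ Nat.card (GL (Fin 2) (ZMod 2))) : k ≤ 1 := by
  rw [card_GL2] at h
  by_contra hk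
  have h1 : r ^ 2 ∣ 6 := (pow_dvd_pow r (by omega)).trans h
  have h2 := Nat.le_of_dvd (by norm_num) h1
  have h3 := hr.two_le
  have h4 : r < 3 := by nlinarith
  omega

theorem gl3_bound (k : ℕ) (h : 7 ^ k ∣ Nat.card (GL (Fin 3) (ZMod 2))) : k ≤ 1 := by
  rw [card_GL3] at h
  by_contra hk
  have h1 : 7 ^ 2 ∣ 168 := (pow_dvd_pow 7 (by omega)).trans h
  revert h1; decide

theorem pair3 [Finite Γ] [Finite A] (x y : Γ) (hT : IsPGroup 3 (closure ({x, y} : Set Γ)))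
    (hx : Module.finrank (ZMod 2) (W ρ x) = 2) (hy : Module.finrank (ZMod 2) (W ρ y) = 2) :
    W ρ x = W ρ y ∨ TypeA ρ x y := by
  refine pair_pgroup ρ (r := 3) (by norm_num) 2 ?_ ?_ x y hT hx hy
  · intro e h1 h2 h3
    interval_cases e
    · left; rfl
    · revert h3; decide
    · right; rfl
  · intro k h
    have h0 : Nat.card (GL (Fin (2 * 2)) (ZMod 2)) = 20160 := card_GL4
    rw [h0] at h
    by_contra hk
    have h1 : 3 ^ 3 ∣ 20160 := (pow_dvd_pow 3 (by omega)).trans h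
    revert h1; decide

theorem pair7 [Finite Γ] [Finite A] (x y : Γ) (hT : IsPGroup 7 (closure ({x, y} : Set Γ)))
    (hx : Module.finrank (ZMod 2) (W ρ x) = 3) (hy : Module.finrank (ZMod 2) (W ρ y) = 3) :
    W ρ x = W ρ y ∨ TypeA ρ x y := by
  haveI : Fact (Nat.Prime 7) := ⟨by norm_num⟩
  refine pair_pgroup ρ (r := 7) (by norm_num) 3 ?_ ?_ x y hT hx hy
  · intro e h1 h2 h3
    interval_cases e
    · left; rfl
    · revert h3; decide
    · revert h3; decide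
    · right; rfl
  · intro k h
    have h0 : Nat.card (GL (Fin (2 * 3)) (ZMod 2)) = 20158709760 := card_GL6
    rw [h0] at h
    by_contra hk
    have h1 : 7 ^ 3 ∣ 20158709760 := (pow_dvd_pow 7 (by omega)).trans h
    revert h1; decide

theorem ne_one_of_finrank {z : Γ} {d : ℕ} (hd : d ≠ 0) (h : Module.finrank (ZMod 2) (W ρ z) = d) :
    ρ z ≠ 1 := by
  intro h1
  have h2 : W ρ z = ⊥ := by
    rw [eq_bot_iff]
    intro v hv
    obtain ⟨a, rfl⟩ := (mem_W_iff ρ).1 hv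
    rw [h1]; simp
  rw [h2, finrank_bot_of_eq rfl] at h
  exact hd h.symm

/-- Stabilizing from the conjugation of commutator spaces. -/
theorem stab_of_conj {f z : Γ} (h : W ρ (f * z * f⁻¹) = W ρ z) {u : A} (hu : u ∈ W ρ z) :
    ρ f u ∈ W ρ z := by
  rw [← h, W_conj]
  exact ⟨u, hu, rfl⟩

/-- A power of `e` moves `W z` if `e` does. -/
theorem moved_powers {s : ℕ} (hs : s.Prime) {e z : Γ} (hes : e ^ s = 1)
    (hmove : W ρ (e * z * e⁻¹) ≠ W ρ z) {k : ℕ} (h0 : 0 < k) (hk : k < s) :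
    W ρ (e ^ k * z * (e ^ k)⁻¹) ≠ W ρ z := by
  intro h
  apply hmove
  have hcop : Nat.Coprime k s := ((Nat.Prime.coprime_iff_not_dvd hs).2 (fun h =>
    absurd (Nat.le_of_dvd h0 h) (by omega))).symm
  obtain ⟨m, -, hm⟩ := Nat.exists_mul_mod_eq_one_of_coprime hcop hs.one_lt
  have h1 : ∀ n : ℕ, W ρ ((e ^ k) ^ n * z * ((e ^ k) ^ n)⁻¹) = W ρ z := by
    intro n
    induction n with
    | zero => simp
    | succ n ih =>
      have h2 : (e ^ k) ^ (n + 1) * z * ((e ^ k) ^ (n + 1))⁻¹ =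
          e ^ k * ((e ^ k) ^ n * z * ((e ^ k) ^ n)⁻¹) * (e ^ k)⁻¹ := by
        rw [pow_succ']; group
      rw [h2, W_conj, ih, ← W_conj, h]
  have h2 := h1 m
  rw [← pow_mul, pow_eq_pow_mod (k * m) hes, hm, pow_one] at h2
  exact h2

/-- Conjugates into a common Sylow subgroup. -/
theorem exists_conj_sylow [Finite Γ] {p : ℕ} [hp : Fact p.Prime] (Q E : Subgroup Γ) (hQ : IsPGroup p Q)
    (hE : IsPGroup p E) :
    ∃ (P : Sylow p Γ) (g : Γ), Q ≤ P ∧ E.map (MulAut.conj g).toMonoidHom ≤ P := by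
  obtain ⟨P, hP⟩ := hQ.exists_le_sylow
  obtain ⟨R, hR⟩ := hE.exists_le_sylow
  obtain ⟨g, hg⟩ := MulAction.exists_smul_eq Γ R P
  refine ⟨P, g, hP, ?_⟩
  rintro _ ⟨y, hy, rfl⟩
  have h2 : (MulAut.conj g).toMonoidHom y ∈ ((g • R : Sylow p Γ) : Subgroup Γ) := by
    rw [Sylow.smul_def, Sylow.pointwise_smul_def]
    exact Subgroup.smul_mem_pointwise_smul _ (MulAut.conj g) _ (hR hy)
  rw [hg] at h2
  exact h2

theorem ea_conj {r : ℕ} (E : Subgroup Γ) (hE : Cfsg.IsElementaryAbelian r E) (g : Γ) :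
    Cfsg.IsElementaryAbelian r (E.map (MulAut.conj g).toMonoidHom) :=
  ea_map _ (MulAut.conj g).injective _ hE

theorem card_conj (E : Subgroup Γ) (g : Γ) :
    Nat.card (E.map (MulAut.conj g).toMonoidHom) = Nat.card E :=
  Subgroup.card_map_of_injective (MulAut.conj g).injective

/-- Abstract result (the output). -/
def Res (ρ : Γ →* Module.End (ZMod 2) A) (x : Γ) : Prop :=
  ∃ (r : ℕ) (F : Subgroup Γ), r.Prime ∧ r ≠ 2 ∧ Cfsg.IsElementaryAbelian r F ∧ Nat.card F = r ^ 3 ∧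
    ¬ IsCyclic ↥(F ⊓ Fx ρ (W ρ x))

theorem res_of_stab2 [Finite Γ] [Finite A] {x : Γ} (hW : Module.finrank (ZMod 2) (W ρ x) = 2)
    {r : ℕ} (hr : r.Prime) (hr2 : r ≠ 2) (F : Subgroup Γ)
    (hF : Cfsg.IsElementaryAbelian r F) (hc : Nat.card F = r ^ 3)
    (hst : ∀ f ∈ F, ∀ u ∈ W ρ x, ρ f u ∈ W ρ x) : Res ρ x := by
  haveI : Fact r.Prime := ⟨hr⟩
  exact ⟨r, F, hr, hr2, hF, hc, nc_of_stab F hF hc _ hst 2 hW (gl2_bound hr hr2)⟩

theorem res_of_stab3 [Finite Γ] [Finite A] {x z : Γ} (hxz : W ρ x ≤ W ρ z)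
    (hW : Module.finrank (ZMod 2) (W ρ z) = 3) (F : Subgroup Γ)
    (hF : Cfsg.IsElementaryAbelian 7 F) (hc : Nat.card F = 7 ^ 3)
    (hst : ∀ f ∈ F, ∀ u ∈ W ρ z, ρ f u ∈ W ρ z) : Res ρ x := by
  haveI : Fact (Nat.Prime 7) := ⟨by norm_num⟩
  refine ⟨7, F, by norm_num, by norm_num, hF, hc, ?_⟩
  refine not_cyclic_mono (H := F ⊓ Fx ρ (W ρ z)) ?_ (nc_of_stab F hF hc _ hst 3 hW gl3_bound)
  rintro g ⟨hg1, hg2⟩
  exact ⟨hg1, fun u hu => hg2 u (hxz hu)⟩

/-- The case `p = 3`. -/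
theorem branch_three [Finite Γ] [Finite A] (x : Γ) (hxp : ∃ n, x ^ 3 ^ n = 1) (hρ3 : ρ x ^ 3 = 1)
    (hW : Module.finrank (ZMod 2) (W ρ x) = 2) (E : Subgroup Γ)
    (hE : Cfsg.IsElementaryAbelian 3 E) (hE3 : Nat.card E = 3 ^ 3) : Res ρ x := by
  classical
  obtain ⟨n, hn⟩ := hxp
  have hQ : IsPGroup 3 (zpowers x) := isPGroup_zpowers x hn
  have hEp : IsPGroup 3 E := by
    intro g
    refine ⟨1, Subtype.ext ?_⟩
    simpa using hE.2 g.1 g.2
  obtain ⟨P, g, hxP, hEP⟩ := exists_conj_sylow (p := 3) (zpowers x) E hQ hEp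
  set E' := E.map (MulAut.conj g).toMonoidHom with hE'
  have hE'ea := ea_conj E hE g
  have hE'c : Nat.card E' = 3 ^ 3 := by rw [hE', card_conj, hE3]
  have hxP' : x ∈ (P : Subgroup Γ) := hxP (mem_zpowers x)
  have hPp : IsPGroup 3 (P : Subgroup Γ) := P.isPGroup'
  by_cases hst : ∀ f ∈ E', W ρ (f * x * f⁻¹) = W ρ x
  · exact res_of_stab2 hW Nat.prime_three (by norm_num) E' hE'ea hE'c
      (fun f hf u hu => stab_of_conj (hst f hf) hu)
  · push_neg at hst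
    obtain ⟨e, he, hmove⟩ := hst
    have heP := hEP he
    have he3 : e ^ 3 = 1 := hE'ea.2 e he
    have hclos : ∀ y ∈ (P : Subgroup Γ), IsPGroup 3 (closure ({x, y} : Set Γ)) := by
      intro y hy
      refine hPp.to_le ((closure_le _).2 ?_)
      rintro w (rfl | hw)
      · exact hxP'
      · rw [Set.mem_singleton_iff.1 hw]; exact hy
    have hx1P : e * x * e⁻¹ ∈ (P : Subgroup Γ) := mul_mem (mul_mem heP hxP') (inv_mem heP)
    have hx2P : e * (e * x * e⁻¹) * e⁻¹ ∈ (P : Subgroup Γ) := mul_mem (mul_mem heP hx1P) (inv_mem heP)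
    have h1 : TypeA ρ x (e * x * e⁻¹) :=
      (pair3 x _ (hclos _ hx1P) hW (by rw [W_finrank_conj, hW])).resolve_left hmove.symm
    have h2ne : W ρ x ≠ W ρ (e * (e * x * e⁻¹) * e⁻¹) := by
      have h3 := moved_powers (ρ := ρ) Nat.prime_three he3 hmove (k := 2) (by norm_num) (by norm_num)
      have h4 : e ^ 2 * x * (e ^ 2)⁻¹ = e * (e * x * e⁻¹) * e⁻¹ := by
        simp only [pow_succ, pow_zero, one_mul, mul_inv_rev, mul_assoc]
      rw [h4] at h3
      exact h3.symm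
    have h2 : TypeA ρ x (e * (e * x * e⁻¹) * e⁻¹) :=
      (pair3 x _ (hclos _ hx2P) hW (by rw [W_finrank_conj, W_finrank_conj, hW])).resolve_left h2ne
    obtain ⟨F, hFE, hFc, hFs⟩ := exists_of_shift (ρ := ρ) (P : Subgroup Γ) hPp x e hxP' heP he3 hρ3
      (ne_one_of_finrank (by norm_num) hW) h1 h2
    exact res_of_stab2 hW Nat.prime_three (by norm_num) F hFE hFc hFs

/-- The case where a `7`-element with three-dimensional commutator space appears. -/
theorem branch_seven [Finite Γ] [Finite A] (x z : Γ) (hxz : W ρ x ≤ W ρ z) (hzp : ∃ n, z ^ 7 ^ n = 1)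
    (hz7 : ρ z ^ 7 = 1) (hW : Module.finrank (ZMod 2) (W ρ z) = 3) (E : Subgroup Γ)
    (hE : Cfsg.IsElementaryAbelian 7 E) (hE3 : Nat.card E = 7 ^ 3) : Res ρ x := by
  classical
  haveI : Fact (Nat.Prime 7) := ⟨by norm_num⟩
  obtain ⟨n, hn⟩ := hzp
  have hQ : IsPGroup 7 (zpowers z) := isPGroup_zpowers z hn
  have hEp : IsPGroup 7 E := by
    intro g
    refine ⟨1, Subtype.ext ?_⟩
    simpa using hE.2 g.1 g.2
  obtain ⟨P, g, hzP, hEP⟩ := exists_conj_sylow (p := 7) (zpowers z) E hQ hEp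
  set E' := E.map (MulAut.conj g).toMonoidHom with hE'
  have hE'ea := ea_conj E hE g
  have hE'c : Nat.card E' = 7 ^ 3 := by rw [hE', card_conj, hE3]
  have hzP' : z ∈ (P : Subgroup Γ) := hzP (mem_zpowers z)
  have hPp : IsPGroup 7 (P : Subgroup Γ) := P.isPGroup'
  by_cases hst : ∀ f ∈ E', W ρ (f * z * f⁻¹) = W ρ z
  · exact res_of_stab3 hxz hW E' hE'ea hE'c (fun f hf u hu => stab_of_conj (hst f hf) hu)
  · push_neg at hst
    obtain ⟨e, he, hmove⟩ := hst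
    have heP := hEP he
    have he7 : e ^ 7 = 1 := hE'ea.2 e he
    have hpairs : ∀ k, 0 < k → k < 7 → TypeA ρ z (e ^ k * z * (e ^ k)⁻¹) := by
      intro k h0 hk
      have hyP : e ^ k * z * (e ^ k)⁻¹ ∈ (P : Subgroup Γ) :=
        mul_mem (mul_mem (pow_mem heP k) hzP') (inv_mem (pow_mem heP k))
      have hcl : IsPGroup 7 (closure ({z, e ^ k * z * (e ^ k)⁻¹} : Set Γ)) := by
        refine hPp.to_le ((closure_le _).2 ?_)
        rintro w (rfl | hw)
        · exact hzP'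
        · rw [Set.mem_singleton_iff.1 hw]; exact hyP
      exact (pair7 z _ hcl hW (by rw [W_finrank_conj, hW])).resolve_left
        (moved_powers (by norm_num) he7 hmove h0 hk).symm
    obtain ⟨F, hFE, hFc, hFs⟩ := exists_of_orbit (ρ := ρ) (r := 7) (by norm_num) z hz7
      (ne_one_of_finrank (by norm_num) hW) e 7 (by norm_num) hpairs
    exact res_of_stab3 hxz hW F hFE hFc hFs

/-- The case `p ≠ 3`. -/
theorem branch_p [Finite Γ] [Group.IsSolvable Γ] [Finite A] (x : Γ) (hxp : ∃ n, x ^ 3 ^ n = 1)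
    (hρ3 : ρ x ^ 3 = 1) (hW : Module.finrank (ZMod 2) (W ρ x) = 2) (p : ℕ) (hp : p.Prime)
    (hp2 : p ≠ 2) (hp3 : p ≠ 3) (E : Subgroup Γ) (hE : Cfsg.IsElementaryAbelian p E)
    (hE3 : Nat.card E = p ^ 3) : Res ρ x := by
  classical
  haveI : Fact p.Prime := ⟨hp⟩
  have hcard0 : Nat.card Γ ≠ 0 := Nat.card_pos.ne'
  obtain ⟨a, n₁, h3n₁, hn₁⟩ := Nat.exists_eq_pow_mul_and_not_dvd hcard0 3 (by norm_num)
  have hn₁0 : n₁ ≠ 0 := by
    rintro rfl
    rw [mul_zero] at hn₁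
    exact hcard0 hn₁
  obtain ⟨b, n₂, hpn₂, hn₂⟩ := Nat.exists_eq_pow_mul_and_not_dvd hn₁0 p hp.ne_one
  have hG : Nat.card Γ = (3 ^ a * p ^ b) * n₂ := by
    rw [hn₁, hn₂]; ring
  have h3n₂ : ¬ 3 ∣ n₂ := fun h => h3n₁ (hn₂ ▸ dvd_mul_of_dvd_right h _)
  have hcop3 : Nat.Coprime 3 n₂ := (Nat.Prime.coprime_iff_not_dvd Nat.prime_three).2 h3n₂
  have hcopp : Nat.Coprime p n₂ := (hp.coprime_iff_not_dvd).2 hpn₂
  have hmn : (3 ^ a * p ^ b).Coprime n₂ :=
    Nat.Coprime.mul_left (hcop3.pow_left a) (hcopp.pow_left b)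
  obtain ⟨k₀, hk₀⟩ := hxp
  have hZc : (Nat.card (zpowers x)).Coprime n₂ := by
    rw [Nat.card_zpowers]
    exact Nat.Coprime.coprime_dvd_left (orderOf_dvd_of_pow_eq_one hk₀) (hcop3.pow_left _)
  obtain ⟨H, hHc, hxH⟩ := Cfsg.Agent.Lib.Solvable.Hall.exists_le_card_eq _ n₂ hG hmn (zpowers x) hZc
  have hEc : (Nat.card E).Coprime n₂ := by
    rw [hE3]; exact hcopp.pow_left 3
  obtain ⟨g, hgE⟩ := Cfsg.Agent.Lib.Solvable.Hall.exists_conj_le _ n₂ hG hmn H E hHc hEc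
  set E' := E.map (MulAut.conj g).toMonoidHom with hE'
  have hE'ea := ea_conj E hE g
  have hE'c : Nat.card E' = p ^ 3 := by rw [hE', card_conj, hE3]
  have hxH' : x ∈ H := hxH (mem_zpowers x)
  have hHprime : ∀ q : ℕ, q.Prime → q ∣ Nat.card H → q = 3 ∨ q = p := by
    intro q hq hd
    rw [hHc] at hd
    rcases (Nat.Prime.dvd_mul hq).1 hd with h | h
    · exact Or.inl ((Nat.prime_dvd_prime_iff_eq hq Nat.prime_three).1 (hq.dvd_of_dvd_pow h))
    · exact Or.inr ((Nat.prime_dvd_prime_iff_eq hq hp).1 (hq.dvd_of_dvd_pow h))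
  by_cases hst : ∀ f ∈ E', W ρ (f * x * f⁻¹) = W ρ x
  · exact res_of_stab2 hW hp hp2 E' hE'ea hE'c (fun f hf u hu => stab_of_conj (hst f hf) hu)
  · push_neg at hst
    obtain ⟨e, he, hmove⟩ := hst
    have heH := hgE he
    have hep : e ^ p = 1 := hE'ea.2 e he
    have hcases : ∀ k, 0 < k → k < p → TypeA ρ x (e ^ k * x * (e ^ k)⁻¹) ∨
        (p = 7 ∧ ∃ z : Γ, (∃ b : ℕ, z ^ 7 ^ b = 1) ∧ ρ z ^ 7 = 1 ∧
          Module.finrank (ZMod 2) (W ρ z) = 3 ∧ W ρ x ≤ W ρ z) := by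
      intro k h0 hk
      have hyH : e ^ k * x * (e ^ k)⁻¹ ∈ H :=
        mul_mem (mul_mem (pow_mem heH k) hxH') (inv_mem (pow_mem heH k))
      have hcl : closure ({x, e ^ k * x * (e ^ k)⁻¹} : Set Γ) ≤ H := by
        refine (closure_le _).2 ?_
        rintro w (rfl | hw)
        · exact hxH'
        · rw [Set.mem_singleton_iff.1 hw]; exact hyH
      have hT : ∀ q : ℕ, q.Prime → q ∣ Nat.card (closure ({x, e ^ k * x * (e ^ k)⁻¹} : Set Γ)) →
          q = 3 ∨ q = p := fun q hq hd =>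
        hHprime q hq (hd.trans (Subgroup.card_dvd_of_le hcl))
      exact (pair_three_p ρ p hp hp2 hp3 x _ hT hρ3 hW (by rw [W_finrank_conj, hW])).resolve_left
        (moved_powers hp hep hmove h0 hk).symm
    by_cases hall : ∀ k, 0 < k → k < p → TypeA ρ x (e ^ k * x * (e ^ k)⁻¹)
    · have hp4 : 4 ≤ p := by
        have := hp.two_le
        omega
      obtain ⟨F, hFE, hFc, hFs⟩ := exists_of_orbit (ρ := ρ) (r := 3) (by norm_num) x hρ3
        (ne_one_of_finrank (by norm_num) hW) e p hp4 hall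
      exact res_of_stab2 hW Nat.prime_three (by norm_num) F hFE hFc hFs
    · push_neg at hall
      obtain ⟨k, h0, hk, hnot⟩ := hall
      obtain ⟨hp7, z, hzp, hz7, hzW, hxz⟩ := (hcases k h0 hk).resolve_left hnot
      subst hp7
      exact branch_seven x z hxz hzp hz7 hzW E hE hE3

/-- **Abstract main theorem.** -/
theorem main_abstract [Finite Γ] [Group.IsSolvable Γ] [Finite A] (x : Γ) (hxp : ∃ n, x ^ 3 ^ n = 1)
    (hρ3 : ρ x ^ 3 = 1) (hW : Module.finrank (ZMod 2) (W ρ x) = 2) (p : ℕ) (hp : p.Prime)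
    (hp2 : p ≠ 2) (E : Subgroup Γ) (hE : Cfsg.IsElementaryAbelian p E)
    (hE3 : Nat.card E = p ^ 3) : Res ρ x := by
  by_cases hp3 : p = 3
  · subst hp3
    exact branch_three x hxp hρ3 hW E hE hE3
  · exact branch_p x hxp hρ3 hW p hp hp2 hp3 E hE hE3

end Cfsg.Agent.Lib.QFour.Main
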